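/- E7MAX (S5934): definitions.  See blueprints/E7MAX.md. -/
import Cfsg.Agent.H63.AdMat
import Cfsg.Agent.H63.RSE7
import Cfsg.Agent.H65.ChkE7

set_option autoImplicit false

namespace H36.E7M
open Cfsg.Lie Subgroup Module
open scoped commutatorElement Matrix

abbrev F := ZMod 2
abbrev G := ↥(chevE7.group F)
abbrev LA := chevE7.Idx → F
abbrev V := Fin 32 → F

instance tab : H65.Tab chevE7 := H65.tabE7

/-- the root element `x_r(1)` -/
noncomputable def x (r : ℕ) : G := H63.xG chevE7 F r 1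
noncomputable def z : G := x 125
noncomputable def y : G := x 0
/-- the level of a root (its coefficient at the first fundamental root) -/
def lev (r : ℕ) : ℤ :=
  if r = 0 then -2 else if r ≤ 32 then -1 else if r ≤ 92 then 0 else if r ≤ 124 then 1 else 2
def Q : Subgroup G := Subgroup.closure {g | ∃ r, 93 ≤ r ∧ r < 126 ∧ g = x r}
def L : Subgroup G := Subgroup.closure {g | ∃ r, 33 ≤ r ∧ r ≤ 92 ∧ g = x r}
def cj (g a : G) : G := g * a * g⁻¹
/-- the conjugate `g H g⁻¹` -/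
def cS (g : G) (H : Subgroup G) : Subgroup G := H.map (MulAut.conj g).toMonoidHom

/-- the adjoint action -/
noncomputable def ρ0 {I : Type} [Fintype I] [DecidableEq I] (H : Subgroup (GL I F)) :
    ↥H →* ((I → F) →ₗ[F] (I → F)) where
  toFun g := Matrix.mulVecLin ((g : GL I F) : Matrix I I F)
  map_one' := LinearMap.ext fun v => by simp
  map_mul' g h := LinearMap.ext fun v => by simp [Matrix.mulVec_mulVec]

theorem ρ0_apply {I : Type} [Fintype I] [DecidableEq I] (H : Subgroup (GL I F)) (g : H) (v : I → F) :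
    ρ0 H g v = ((g : GL I F) : Matrix I I F) *ᵥ v := rfl

noncomputable def ρ : G →* (LA →ₗ[F] LA) := ρ0 (chevE7.group F)

theorem ρ_apply (g : G) (v : LA) :
    ρ g v = ((g : GL chevE7.Idx F) : Matrix chevE7.Idx chevE7.Idx F) *ᵥ v := ρ0_apply _ g v

/-- the index of the root vector `e_r` -/
def ix (r : Fin 126) : chevE7.Idx := Sum.inr r
/-- the index of `h_i` -/
def ih (i : Fin 7) : chevE7.Idx := Sum.inl i
/-- the root vector `e_r` -/
def eb (r : Fin 126) : LA := Pi.single (ix r) 1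
/-- the root of level `-1` number `i` -/
def lo (i : Fin 32) : Fin 126 := ⟨i + 1, by omega⟩

/-- root involutions -/
def D : Set G := {a | ∃ g, a = cj g z}
/-- `(a, b)` is conjugate to `(z, x r)` with `r` of level `k`:
`2` equal, `1` collinear, `0` polar, `-1` special, `-2` opposite -/
def Rel (k : ℤ) (a b : G) : Prop := ∃ g r, r < 126 ∧ lev r = k ∧ a = cj g z ∧ b = cj g (x r)
/-- `v = e(a)` -/
def Ev (a : G) (v : LA) : Prop := ∃ g, a = cj g z ∧ v = ρ g (eb 125)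
def spanE (S : Set G) : Submodule F LA := Submodule.span F {v | ∃ a ∈ S, Ev a v}
def fixS (S : Set G) : Submodule F LA where
  carrier := {v | ∀ a ∈ S, ρ a v = v}
  add_mem' ha hb a h := by rw [map_add, ha a h, hb a h]
  zero_mem' a _ := map_zero _
  smul_mem' c v hv a h := by rw [map_smul, hv a h]
/-- the elements of `S` keep `U` -/
def Inv (S : Set G) (U : Submodule F LA) : Prop := ∀ g ∈ S, ∀ v ∈ U, ρ g v ∈ U
/-- the class `z ^ Y` -/
def orb (Y : Subgroup G) : Set G := {a | ∃ u ∈ Y, a = cj u z}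

/-- level `-1` coordinates of `g e_{-θ}` -/
noncomputable def φ (g : G) : V := fun i => ρ g (eb 0) (ix (lo i))
/-- `V` as the level `-1` part of `LA` -/
noncomputable def emb (v : V) : LA := ∑ i, v i • eb (lo i)
/-- the level `-1` block -/
noncomputable def A (g : G) : V →ₗ[F] V where
  toFun v i := ρ g (emb v) (ix (lo i))
  map_add' u v := by ext i; simp [emb, add_smul, Finset.sum_add_distrib]
  map_smul' c v := by
    ext i
    have : emb (c • v) = c • emb v := by simp [emb, Finset.smul_sum, smul_smul]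
    simp [this]
/-- the commutator form -/
def Bf (u v : V) : F := ∑ i, u i * v i.rev
/-- the level `0` part of `v` is `0` or `h_θ` -/
def Crit (v : LA) : Prop := (∀ r : Fin 126, 33 ≤ (r : ℕ) → (r : ℕ) ≤ 92 → v (ix r) = 0) ∧
  ((∀ i, v (ih i) = 0) ∨ ∀ i, v (ih i) = ![0, 0, 1, 0, 1, 0, 1] i)

/-! ### types -/

structure Base (Y : Subgroup G) : Prop where
  z_mem : z ∈ Y
  y_mem : y ∈ Y
  ne_top : Y ≠ ⊤
  max : ∀ M : Subgroup G, Y ≤ M → M ≠ ⊤ → M ⊓ Q ≤ Y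
  nondeg : ∀ a ∈ Y, a ∈ Q → a ≠ 1 → a ≠ z → ∃ w ∈ Y, w ∈ Q ∧ ⁅a, w⁆ = z
  gens : Y ≤ Subgroup.closure {g | g ∈ Y ∧ (Commute g z ∨ Rel (-2) z g)}
  fix : finrank F (fixS (orb Y)) ≤ 21

structure Root (Y : Subgroup G) : Prop where
  root : ∃ a ∈ Y, a ∈ Q ∧ a ∈ D ∧ a ≠ z
  mod : ∃ m : Submodule F LA, Inv Y m ∧ eb 125 ∈ m ∧ finrank F m ≤ 90
  big : 22 ≤ finrank F (spanE (D ∩ Y))

def Deg (Y : Subgroup G) : Prop := ∀ a ∈ Y, a ∈ Q → a ∈ D → a = z
def Big (Y : Subgroup G) : Prop := 22 ≤ finrank F (spanE (orb Y))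
noncomputable def nQ (Y : Subgroup G) : ℕ := Nat.card ↥(Y ⊓ Q)
noncomputable def rho (Y : Subgroup G) : ℕ := {a | a ∈ Y ∧ a ∈ Q ∧ a ∈ D}.ncard

/-- the group `L2(128).7` -/
structure Dg (Y : Subgroup G) : Prop where
  ne_top : Y ≠ ⊤
  irr : ∀ U : Submodule F LA, Inv Y U → finrank F U ≤ 21 ∨ 112 ≤ finrank F U
  g43 : ∃ g ∈ Y, g ^ 43 = 1 ∧ finrank F (fixS {g}) ≤ 7
  g127 : ∃ g ∈ Y, g ^ 127 = 1 ∧ finrank F (fixS {g}) ≤ 7

/-! ### small kit -/

theorem cj_def (g a : G) : cj g a = g * a * g⁻¹ := rfl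
theorem cj_cj (g h a : G) : cj g (cj h a) = cj (g * h) a := by simp [cj, mul_assoc]
@[simp] theorem cj_one (a : G) : cj 1 a = a := by simp [cj]
theorem cj_inv_cj (g a : G) : cj g⁻¹ (cj g a) = a := by simp [cj, mul_assoc]
theorem cj_cj_inv (g a : G) : cj g (cj g⁻¹ a) = a := by simp [cj, mul_assoc]
theorem cj_mul (g a b : G) : cj g (a * b) = cj g a * cj g b := by simp [cj, mul_assoc]
theorem cj_inj {g a b : G} (h : cj g a = cj g b) : a = b := by simpa [cj] using h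
theorem cj_comm (g a b : G) : cj g ⁅a, b⁆ = ⁅cj g a, cj g b⁆ := by
  simp [cj, commutatorElement_def, mul_assoc]
theorem cj_eq_iff {g a : G} : cj g a = a ↔ Commute g a := by
  rw [cj, mul_inv_eq_iff_eq_mul]; rfl
theorem commute_cj {g a b : G} : Commute (cj g a) (cj g b) ↔ Commute a b := by
  simp only [commute_iff_eq, ← cj_mul]; exact ⟨cj_inj, fun h => by rw [h]⟩
theorem cj_mem {H : Subgroup G} {g a : G} (hg : g ∈ H) (ha : a ∈ H) : cj g a ∈ H :=
  mul_mem (mul_mem hg ha) (inv_mem hg)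
theorem mem_cS {g a : G} {H : Subgroup G} : a ∈ cS g H ↔ cj g⁻¹ a ∈ H := by
  constructor
  · rintro ⟨b, hb, rfl⟩
    have : cj g⁻¹ ((MulAut.conj g).toMonoidHom b) = b := cj_inv_cj g b
    rwa [this]
  · intro h; exact ⟨_, h, cj_cj_inv g a⟩
theorem z_mem_D : z ∈ D := ⟨1, (cj_one z).symm⟩
theorem D_cj {a : G} (g : G) (h : a ∈ D) : cj g a ∈ D := by
  obtain ⟨u, rfl⟩ := h; exact ⟨g * u, cj_cj _ _ _⟩
theorem Rel.cj {k : ℤ} {a b : G} (g : G) (h : Rel k a b) : Rel k (cj g a) (cj g b) := by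
  obtain ⟨u, r, h1, h2, rfl, rfl⟩ := h
  exact ⟨g * u, r, h1, h2, cj_cj _ _ _, cj_cj _ _ _⟩
theorem Rel.of_cj {k : ℤ} {a b : G} (g : G) (h : Rel k (E7M.cj g a) (E7M.cj g b)) : Rel k a b := by
  simpa only [cj_inv_cj] using h.cj g⁻¹
theorem Rel.left {k : ℤ} {a b : G} (h : Rel k a b) : a ∈ D := by
  obtain ⟨u, r, -, -, rfl, -⟩ := h; exact ⟨u, rfl⟩
theorem rel_x {r : ℕ} (h : r < 126) : Rel (lev r) z (x r) :=
  ⟨1, r, h, rfl, (cj_one _).symm, (cj_one _).symm⟩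
theorem lev_cases (r : ℕ) : (lev r = -2 ∧ r = 0) ∨ (lev r = -1 ∧ 1 ≤ r ∧ r ≤ 32) ∨
    (lev r = 0 ∧ 33 ≤ r ∧ r ≤ 92) ∨ (lev r = 1 ∧ 93 ≤ r ∧ r ≤ 124) ∨ (lev r = 2 ∧ 125 ≤ r) := by
  unfold lev; split_ifs <;> omega
theorem rel_opp {a b : G} : Rel (-2) a b ↔ ∃ g, a = cj g z ∧ b = cj g y := by
  constructor
  · rintro ⟨g, r, -, h, rfl, rfl⟩
    have : r = 0 := by have := lev_cases r; omega
    subst this; exact ⟨g, rfl, rfl⟩
  · rintro ⟨g, rfl, rfl⟩; exact ⟨g, 0, by omega, rfl, rfl, rfl⟩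
theorem rel_two {a b : G} (h : Rel 2 a b) : a = b := by
  obtain ⟨g, r, h1, h, rfl, rfl⟩ := h
  have : r = 125 := by have := lev_cases r; omega
  subst this; rfl
theorem Rel.cases {k : ℤ} {a b : G} (h : Rel k a b) : k = -2 ∨ k = -1 ∨ k = 0 ∨ k = 1 ∨ k = 2 := by
  obtain ⟨g, r, -, h, -, -⟩ := h
  have := lev_cases r; omega
theorem Ev.cj {a : G} {v : LA} (g : G) (h : Ev a v) : Ev (cj g a) (ρ g v) := by
  obtain ⟨u, rfl, rfl⟩ := h
  exact ⟨g * u, cj_cj _ _ _, by rw [map_mul]; rfl⟩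
theorem ev_z : Ev z (eb 125) := ⟨1, (cj_one _).symm, by simp⟩
theorem mem_fixS {S : Set G} {v : LA} : v ∈ fixS S ↔ ∀ a ∈ S, ρ a v = v := Iff.rfl
theorem x_mem_Q {r : ℕ} (h1 : 93 ≤ r) (h2 : r < 126) : x r ∈ Q := subset_closure ⟨r, h1, h2, rfl⟩
theorem x_mem_L {r : ℕ} (h1 : 33 ≤ r) (h2 : r ≤ 92) : x r ∈ L := subset_closure ⟨r, h1, h2, rfl⟩
theorem z_mem_Q : z ∈ Q := x_mem_Q (by omega) (by omega)
theorem x_val (r : ℕ) :
    ((x r : GL chevE7.Idx F) : Matrix chevE7.Idx chevE7.Idx F) = chevE7.x F r 1 :=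
  H63.val_eq_xG.2 rfl

end H36.E7M
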