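/- E7MAX (S5934): the jobs.  See blueprints/E7MAX.md. -/
import Cfsg.Agent.H36.E7MDef

set_option autoImplicit false

namespace H36.E7M
open Cfsg.Lie Module
open scoped commutatorElement

instance finG : Finite G := inferInstance

/-- coefficient of the `i`-th fundamental root in the root `r` -/
def co (r i : ℕ) : ℤ := (chevE7Coroot.getD r #[]).getD i 0
/-- `t = r + s` as roots -/
def Sm (r s t : ℕ) : Prop := ∀ i < 7, co t i = co r i + co s i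
instance (r s t : ℕ) : Decidable (Sm r s t) := by unfold Sm; infer_instance
/-- the maximal parabolic subgroups -/
def P (j : Fin 7) : Subgroup G := Subgroup.closure {g | ∃ r < 126, 0 ≤ co r j ∧ g = x r}
/-- all coordinates of level `< k` vanish (the `h i` have level `0`) -/
def Fil (k : ℤ) (v : LA) : Prop :=
  (∀ r : Fin 126, lev r < k → v (ix r) = 0) ∧ (0 < k → ∀ i, v (ih i) = 0)
/-- all coordinates of level `≠ k` vanish -/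
def Gr (k : ℤ) (v : LA) : Prop :=
  (∀ r : Fin 126, lev r ≠ k → v (ix r) = 0) ∧ (k ≠ 0 → ∀ i, v (ih i) = 0)
/-- `h_θ` -/
def hT : LA := Pi.single (ih 2) 1 + Pi.single (ih 4) 1 + Pi.single (ih 6) 1

/-! ### Part I -/

def JobSQ : Prop := (∀ r, x r * x r = 1) ∧ (∀ r < 126, ∀ s < 126, x r = x s → r = s) ∧
  (∀ r < 126, x r ≠ 1) ∧ z * y * z = y * z * y
def JobCM : Prop := ∀ r < 126, ∀ s < 126, (∀ t < 126, Sm r s t → ⁅x r, x s⁆ = x t) ∧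
  (r + s ≠ 125 → (∀ t < 126, ¬ Sm r s t) → Commute (x r) (x s))
def JobLQ : Prop := (∀ l ∈ L, ∀ q ∈ Q, cj l q ∈ Q) ∧ (∀ l ∈ L, Commute l z ∧ Commute l y) ∧
  (∀ q ∈ Q, Commute q z) ∧ ∀ q ∈ Q, ∀ q' ∈ Q, ⁅q, q'⁆ = 1 ∨ ⁅q, q'⁆ = z
def JobCZ : Prop := ∀ g, Commute g z → ∃ l ∈ L, ∃ q ∈ Q, g = l * q
def JobR5 : Prop := ∀ g, ∃ u r, r < 126 ∧ Commute u z ∧ cj g z = cj u (x r)
/-- monomial elements: transitive on the roots, keep the inner products -/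
def JobW : Prop := ∀ r : Fin 126, Ev (x r) (eb r) ∧
  ∀ s : Fin 126, Rel (chevE7.pairing r s) (x r) (x s)
def JobFIL : Prop := (∀ q ∈ Q, ∀ k v, Fil k v → Fil (k + 1) (ρ q v - v)) ∧
  (∀ l ∈ L, ∀ k v, (Gr k v → Gr k (ρ l v)) ∧ (Fil k v → Fil k (ρ l v))) ∧
  (∀ l ∈ L, ρ l (eb 0) = eb 0 ∧ ρ l (eb 125) = eb 125 ∧ ρ l hT = hT) ∧
  ρ z (eb 0) = eb 0 + hT + eb 125 ∧
  ∀ i : Fin 32, ρ (x (93 + i)) (eb 0) = eb 0 + eb (lo i) ∧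
    ρ (x (93 + i) * z) (eb 0) - (eb 0 + eb (lo i) + hT) ∈ {v | Fil 1 v}
def JobPHI : Prop := (∀ q ∈ Q, ∀ q' ∈ Q, φ (q * q') = φ q + φ q') ∧
  (∀ q ∈ Q, φ q = 0 ↔ q = 1 ∨ q = z) ∧ (∀ v, ∃ q ∈ Q, φ q = v) ∧
  (∀ i : Fin 32, φ (x (93 + i)) = Pi.single i 1) ∧
  ∀ l ∈ L, ∀ q ∈ Q, φ (cj l q) = A l (φ q)
def JobFORM : Prop := ∀ q ∈ Q, ∀ q' ∈ Q, Bf (φ q) (φ q') = 1 → ⁅q, q'⁆ = z
def JobCOL : Prop := ∀ a ∈ D, a ∈ Q → a ≠ z →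
  ∃ l ∈ L, ∃ r, 93 ≤ r ∧ r ≤ 124 ∧ (a = cj l (x r) ∨ a = cj l (x r * z))
def JobCRIT : Prop := ∀ a ∈ D, a ∈ Q → a ≠ z → Crit (ρ a (eb 0))
def JobGEN : Prop := ∀ M : Subgroup G, Q ≤ M → y ∈ M → M = ⊤
def JobDIM : Prop := finrank F (LinearMap.range (ρ z - 1)) = 34 ∧ finrank F (fixS {z}) = 99 ∧
  finrank F (fixS {z * y}) = 67

/-- what the abstract layer uses -/
structure P1 : Prop where
  zz : z * z = 1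
  yy : y * y = 1
  z_ne : z ≠ 1
  zy : ¬ Commute z y
  s3 : z * y * z = y * z * y
  one : (1 : G) ∉ D
  Qz : ∀ q ∈ Q, Commute q z
  czQ : ∀ g, Commute g z → ∀ q ∈ Q, cj g q ∈ Q
  cze : ∀ g, Commute g z → ρ g (eb 125) = eb 125
  r5 : ∀ a ∈ D, ∀ b ∈ D, ∃ k, Rel k a b
  sym : ∀ k a b, Rel k a b → Rel k b a
  col : ∀ a, Rel 1 z a ↔ a ∈ D ∧ a ∈ Q ∧ a ≠ z
  pol : ∀ a b, Rel 0 a b → Commute a b
  pol2 : ∀ b, Rel 0 z b → ∃ c, Rel 1 z c ∧ ¬ Commute b c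
  spe : ∀ a b, Rel (-1) a b → Rel 1 a ⁅a, b⁆ ∧ Rel 1 b ⁅a, b⁆
  gen : JobGEN
  line : ∀ a, Rel 1 z a → Rel 1 z (a * z) ∧
    (Rel (-1) a y ∧ Rel (-2) (a * z) y ∨ Rel (-2) a y ∧ Rel (-1) (a * z) y)

def JobP1 : Prop := JobSQ → JobCM → JobLQ → JobCZ → JobR5 → JobW → JobFIL → JobCOL → JobGEN → P1

/-! ### parabolic subgroups -/

def JobPM : Prop := ∀ j, IsCoatom (P j)
def JobPN : Prop := ∀ i j g, cS g (P i) = P j → i = j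
def JobPU : Prop := ∀ j, ∃ U : Submodule F LA, Inv (P j) U ∧ 22 ≤ finrank F U ∧ finrank F U ≤ 111
def JobBT : Prop := ∀ R : Subgroup G, IsPGroup 2 R → R ≠ ⊥ →
  ∃ g, ∃ H : Subgroup G, H ≠ ⊤ ∧ cS g Q ≤ H ∧ Subgroup.normalizer (R : Set G) ≤ H

/-! ### the abstract layer -/

structure St (M : Subgroup G) : Prop where
  z_mem : z ∈ M
  y_mem : y ∈ M
  ne_top : M ≠ ⊤
  nondeg : ∀ a ∈ M, a ∈ Q → a ≠ 1 → a ≠ z → ∃ w ∈ M, w ∈ Q ∧ ⁅a, w⁆ = z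

theorem Base.st {Y M : Subgroup G} (h : Base Y) (h1 : Y ≤ M) (h2 : M ≠ ⊤) : St M :=
  ⟨h1 h.z_mem, h1 h.y_mem, h2, fun a ha hq h3 h4 => by
    obtain ⟨w, hw, h5⟩ := h.nondeg a (h.max M h1 h2 ⟨ha, hq⟩) hq h3 h4
    exact ⟨w, h1 hw, h5⟩⟩

/-- the collinearity component of `z` in `D ∩ M` -/
def Comp (M : Subgroup G) : Set G := {b | Relation.ReflTransGen (fun a b => b ∈ M ∧ Rel 1 a b) z b}
/-- no proper subgroup contains `Y` and a conjugate of `Y'` -/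
def NC (Y Y' : Subgroup G) : Prop := ∀ (M : Subgroup G) g, M ≠ ⊤ → Y ≤ M → cS g Y' ≤ M → False

def A0 : Prop := ∀ M, St M → ∀ b ∈ M, Rel 1 z b →
  ∃ u ∈ Subgroup.closure ({z, y} ∪ (M ⊓ Q : Subgroup G) : Set G), b = cj u z
def A1 : Prop := ∀ M, St M → ∀ a ∈ orb M, ∀ b ∈ M, ∀ k, k ≠ 0 → Rel k a b → b ∈ orb M
def A2 : Prop := ∀ M, St M → ∀ g, ¬ cS g Q ≤ M
def A3 : Prop := ∀ Y M, Base Y → Root Y → Y ≤ M → M ≠ ⊤ →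
  orb Y = Comp M ∧ ∀ b ∈ M, b ∈ D → b ∈ orb Y ∨ ∀ a ∈ orb Y, Commute a b
def DI : Prop := ∀ (Y Y' M : Subgroup G) g, Base Y → Base Y' → Big Y ∨ Big Y' → M ≠ ⊤ → Y ≤ M →
  cS g Y' ≤ M → ∃ h, Commute h z ∧ cS h Y' ≤ M ∧ nQ Y = nQ Y' ∧ rho Y = rho Y'
/-- `z ^ Y` keeps a subspace of dimension 27 -/
def U27 (Y : Subgroup G) : Prop := ∃ U : Submodule F LA, finrank F U = 27 ∧ Inv (orb Y) U
def G19 (Y : Subgroup G) : Prop :=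
  ∃ g ∈ Subgroup.closure (orb Y), g ^ 19 = 1 ∧ finrank F (fixS {g}) ≤ 8

def JobA1 : Prop := P1 → A0 ∧ A1
def JobA2 : Prop := P1 → A1 → A2
def JobA3 : Prop := P1 → A0 → A3
def JobDI : Prop := P1 → A1 → DI
def JobE6X : Prop := P1 → A3 → DI → ∀ Y Y', Base Y → Root Y → Big Y → U27 Y →
  Base Y' → Root Y' → G19 Y' → NC Y Y'
def JobRD : Prop := P1 → A3 → ∀ Y Y', Base Y → Root Y → Dg Y' → NC Y Y'
def JobDD : Prop := P1 → A1 → A2 → JobBT → JobDIM → ∀ (Y Y' M : Subgroup G) g, Base Y → Deg Y →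
  Big Y → Dg Y' → IsCoatom M → Y ≤ M → cS g Y' ≤ M → False

/-! ### from linear algebra on `V` to the type data -/

/-- the images of the root involutions of `Q` -/
def RV : Set V := {v | ∃ a ∈ Q, a ∈ D ∧ a ≠ z ∧ φ a = v}
/-- `Y ⊓ Q` is the preimage of `W` -/
def Pre (Y : Subgroup G) (W : Submodule F V) : Prop := ∀ q ∈ Q, q ∈ Y ↔ φ q ∈ W

def SB : Prop := ∀ (Y : Subgroup G) (W : Submodule F V), z ∈ Y → y ∈ Y → Y ≠ ⊤ →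
  W ≤ Submodule.span F {v | ∃ w ∈ Y, w ∈ Q ∧ φ w = v} →
  (∀ S : Submodule F V, W ≤ S → (∀ l ∈ Y, l ∈ L → ∀ v ∈ S, A l v ∈ S) → S = W ∨ S = ⊤) →
  (∀ M : Subgroup G, Y ≤ M → M ≠ ⊤ → M ⊓ Q ≤ Y) ∧ Pre Y W
def SC : Prop := ∀ (Y : Subgroup G) (W : Submodule F V), Pre Y W →
  nQ Y = 2 ^ (finrank F W + 1) ∧ rho Y = 2 * (RV ∩ W).ncard + 1 ∧
  ((∀ u ∈ W, u ≠ 0 → ∃ v ∈ W, Bf u v = 1) →
    ∀ a ∈ Y, a ∈ Q → a ≠ 1 → a ≠ z → ∃ w ∈ Y, w ∈ Q ∧ ⁅a, w⁆ = z) ∧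
  ((RV ∩ W).Nonempty → ∃ a ∈ Y, a ∈ Q ∧ a ∈ D ∧ a ≠ z) ∧ (RV ∩ W = ∅ → Deg Y)
def SR : Prop := (0 : V) ∉ RV ∧ (∀ i, (Pi.single i 1 : V) ∈ RV) ∧
  (∀ l ∈ L, ∀ v ∈ RV, A l v ∈ RV) ∧ ∀ q ∈ Q, φ q ∈ RV → Crit (ρ q (eb 0))

def JobSB : Prop := JobPHI → JobLQ → JobGEN → SB
def JobSC : Prop := P1 → JobPHI → JobFORM → SC
def JobSR : Prop := P1 → JobLQ → JobW → JobPHI → JobCRIT → SR

/-- everything a type computation may use -/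
structure Kit : Prop where
  p1 : P1
  lq : JobLQ
  w : JobW
  fil : JobFIL
  phi : JobPHI
  sb : SB
  sc : SC
  sr : SR

/-! ### the types -/

def TD6 : Prop := ∃ Y, Base Y ∧ Root Y ∧ Big Y ∧ nQ Y = 2 ^ 17
def TE6 : Prop := ∃ Y, Base Y ∧ Root Y ∧ Big Y ∧ nQ Y = 2 ^ 21 ∧ U27 Y
def T2E6 : Prop := ∃ Y, Base Y ∧ Root Y ∧ Big Y ∧ nQ Y = 2 ^ 21 ∧ G19 Y
def TA7 : Prop := ∃ Y, Base Y ∧ Root Y ∧ Big Y ∧ nQ Y = 2 ^ 13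
def TU8 : Prop := ∃ Y, Base Y ∧ Deg Y ∧ Big Y ∧ nQ Y = 2 ^ 13
def TA5 : Prop := ∃ Y, Base Y ∧ Root Y ∧ Big Y ∧ nQ Y = 2 ^ 9 ∧ 56 ≤ rho Y
def TU6 : Prop := ∃ Y, Base Y ∧ Deg Y ∧ Big Y ∧ nQ Y = 2 ^ 9
def TD4 : Prop := ∃ Y, Base Y ∧ Root Y ∧ Big Y ∧ nQ Y = 2 ^ 9 ∧ 20 ≤ rho Y ∧ rho Y ≤ 55
def T3D4 : Prop := ∃ Y, Base Y ∧ Root Y ∧ Big Y ∧ nQ Y = 2 ^ 9 ∧ rho Y ≤ 19
def TG2 : Prop := ∃ Y, Base Y ∧ Root Y ∧ nQ Y = 2 ^ 5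
def TNT : Prop := ∃ Y, Base Y ∧ Deg Y ∧ Big Y ∧ nQ Y = 2
def TL2 : Prop := ∃ Y, Dg Y

end H36.E7M
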