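/- E7MAX (S5934): assembly. -/
import Cfsg.Agent.H36.E7MSpec

set_option autoImplicit false

namespace H36.E7M
open Cfsg.Lie Module

theorem cS_cS (g h : G) (H : Subgroup G) : cS g (cS h H) = cS (g * h) H := by
  ext a; simp only [mem_cS, cj_cj, mul_inv_rev]

theorem cS_one (H : Subgroup G) : cS 1 H = H := by
  ext a; simp only [mem_cS, inv_one, cj_one]

theorem cS_mono (g : G) {H K : Subgroup G} (h : H ≤ K) : cS g H ≤ cS g K := Subgroup.map_mono h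

theorem cS_ne_top (g : G) {H : Subgroup G} (h : H ≠ ⊤) : cS g H ≠ ⊤ := fun e => h (by
  rw [eq_top_iff]; intro a _
  have : cj g a ∈ cS g H := e ▸ Subgroup.mem_top _
  rwa [mem_cS, cj_inv_cj] at this)

theorem cS_symm {g : G} {H K : Subgroup G} (h : cS g H = K) : cS g⁻¹ K = H := by
  rw [← h, cS_cS, inv_mul_cancel, cS_one]

theorem NC.symm {Y Y' : Subgroup G} (h : NC Y Y') : NC Y' Y := fun M g h1 h2 h3 =>
  h (cS g⁻¹ M) g⁻¹ (cS_ne_top _ h1) (by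
    have := cS_mono g⁻¹ h3
    rwa [cS_cS, inv_mul_cancel, cS_one] at this) (cS_mono _ h2)

theorem rho_le (Y : Subgroup G) : rho Y ≤ nQ Y := by
  have : nQ Y = ((Y ⊓ Q : Subgroup G) : Set G).ncard := Nat.card_coe_set_eq _
  rw [this]
  exact Set.ncard_le_ncard (fun a h => ⟨h.1, h.2.1⟩) (Set.toFinite _)

theorem Root.two {Y : Subgroup G} (b : Base Y) (h : Root Y) : 2 ≤ rho Y := by
  obtain ⟨a, h1, h2, h3, h4⟩ := h.root
  exact (Set.one_lt_ncard (Set.toFinite _)).2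
    ⟨a, ⟨h1, h2, h3⟩, z, ⟨b.z_mem, z_mem_Q, z_mem_D⟩, h4⟩

theorem Deg.one {Y : Subgroup G} (h : Deg Y) : rho Y ≤ 1 :=
  (Set.ncard_le_one (Set.toFinite _)).2 fun a ha b hb => by
    rw [h a ha.1 ha.2.1 ha.2.2, h b hb.1 hb.2.1 hb.2.2]

theorem Q_le_P (j : Fin 7) : Q ≤ P j := Subgroup.closure_mono (by
  rintro _ ⟨r, h1, h2, rfl⟩
  refine ⟨r, h2, ?_, rfl⟩
  have : ∀ r < 126, 93 ≤ r → ∀ j : Fin 7, 0 ≤ co r j := by decide +kernel
  exact this r h2 h1 j)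

theorem Dg.not_le {Y H : Subgroup G} (h : Dg Y) {U : Submodule F LA} (hU : Inv H U)
    (h1 : 22 ≤ finrank F U) (h2 : finrank F U ≤ 111) (g : G) : ¬ cS g Y ≤ H := fun hle => by
  have inj : Function.Injective (ρ g⁻¹) := fun u v e => by
    have := congrArg (ρ g) e
    rwa [← Module.End.mul_apply, ← Module.End.mul_apply, ← map_mul, mul_inv_cancel, map_one] at this
  have e : finrank F (U.map (ρ g⁻¹)) = finrank F U :=
    (LinearEquiv.finrank_eq (Submodule.equivMapOfInjective _ inj U)).symm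
  have := h.irr (U.map (ρ g⁻¹)) (by
    rintro a ha _ ⟨v, hv, rfl⟩
    refine ⟨ρ (cj g a) v, hU _ (hle (by rw [mem_cS, cj_inv_cj]; exact ha)) v hv, ?_⟩
    rw [← Module.End.mul_apply, ← Module.End.mul_apply, ← map_mul, ← map_mul, cj]
    simp only [mul_assoc, inv_mul_cancel_left])
  omega

/-- the eleven types as one family -/
structure Fam (Y : Fin 11 → Subgroup G) : Prop where
  base : ∀ i, Base (Y i)
  big : ∀ i, i ≠ 9 → Big (Y i)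
  kind : ∀ i, Root (Y i) ∨ Deg (Y i) ∧ Big (Y i)
  n : ∀ i, nQ (Y i) = 2 ^ (![17, 21, 21, 13, 13, 9, 9, 9, 9, 5, 1] i)
  lo : ∀ i, ![0, 0, 0, 2, 0, 56, 0, 20, 2, 0, 0] i ≤ rho (Y i)
  hi : ∀ i, rho (Y i) ≤ ![2 ^ 17, 2 ^ 21, 2 ^ 21, 2 ^ 13, 1, 2 ^ 9, 1, 55, 19, 2 ^ 5, 2] i
  e6 : NC (Y 1) (Y 2)

theorem fam (e6 : ∀ Y Y', Base Y → Root Y → Big Y → U27 Y → Base Y' → Root Y' → G19 Y' → NC Y Y')
    (t0 : TD6) (t1 : TE6) (t2 : T2E6) (t3 : TA7) (t4 : TU8) (t5 : TA5) (t6 : TU6) (t7 : TD4)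
    (t8 : T3D4) (t9 : TG2) (t10 : TNT) : ∃ Y, Fam Y := by
  obtain ⟨Y0, a0, b0, c0, d0⟩ := t0
  obtain ⟨Y1, a1, b1, c1, d1, e1⟩ := t1
  obtain ⟨Y2, a2, b2, c2, d2, e2⟩ := t2
  obtain ⟨Y3, a3, b3, c3, d3⟩ := t3
  obtain ⟨Y4, a4, b4, c4, d4⟩ := t4
  obtain ⟨Y5, a5, b5, c5, d5, e5⟩ := t5
  obtain ⟨Y6, a6, b6, c6, d6⟩ := t6
  obtain ⟨Y7, a7, b7, c7, d7, e7, f7⟩ := t7
  obtain ⟨Y8, a8, b8, c8, d8, e8⟩ := t8
  obtain ⟨Y9, a9, b9, d9⟩ := t9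
  obtain ⟨Y10, a10, b10, c10, d10⟩ := t10
  refine ⟨![Y0, Y1, Y2, Y3, Y4, Y5, Y6, Y7, Y8, Y9, Y10], fun i => ?_, fun i hi => ?_, fun i => ?_,
    fun i => ?_, fun i => ?_, fun i => ?_, e6 _ _ a1 b1 c1 e1 a2 b2 e2⟩
  · fin_cases i; exacts [a0, a1, a2, a3, a4, a5, a6, a7, a8, a9, a10]
  · fin_cases i; exacts [c0, c1, c2, c3, c4, c5, c6, c7, c8, absurd rfl hi, c10]
  · fin_cases i
    exacts [.inl b0, .inl b1, .inl b2, .inl b3, .inr ⟨b4, c4⟩, .inl b5, .inr ⟨b6, c6⟩, .inl b7,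
      .inl b8, .inl b9, .inr ⟨b10, c10⟩]
  · fin_cases i; exacts [d0, d1, d2, d3, d4, d5, d6, d7, d8, d9, d10]
  · fin_cases i
    exacts [Nat.zero_le _, Nat.zero_le _, Nat.zero_le _, b3.two a3, Nat.zero_le _, e5, Nat.zero_le _,
      e7, b8.two a8, Nat.zero_le _, Nat.zero_le _]
  · fin_cases i
    exacts [(rho_le Y0).trans d0.le, (rho_le Y1).trans d1.le, (rho_le Y2).trans d2.le,
      (rho_le Y3).trans d3.le, b4.one, (rho_le Y5).trans d5.le, b6.one, f7, e8,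
      (rho_le Y9).trans d9.le, (rho_le Y10).trans d10.le]

theorem Fam.nc {Y : Fin 11 → Subgroup G} (h : Fam Y) (di : DI) {i j : Fin 11} (hij : i ≠ j) :
    NC (Y i) (Y j) := fun M g h1 h2 h3 => by
  have hb : Big (Y i) ∨ Big (Y j) := by
    by_cases e : i = 9
    · exact .inr (h.big j fun e' => hij (e.trans e'.symm))
    · exact .inl (h.big i e)
  obtain ⟨-, -, -, e1, e2⟩ := di _ _ M g (h.base i) (h.base j) hb h1 h2 h3
  rw [h.n i, h.n j] at e1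
  have tab : ∀ i j : Fin 11, i ≠ j →
      2 ^ (![17, 21, 21, 13, 13, 9, 9, 9, 9, 5, 1] i) = 2 ^ (![17, 21, 21, 13, 13, 9, 9, 9, 9, 5, 1] j) →
      (i = 1 ∧ j = 2) ∨ (i = 2 ∧ j = 1) ∨
      ![2 ^ 17, 2 ^ 21, 2 ^ 21, 2 ^ 13, 1, 2 ^ 9, 1, 55, 19, 2 ^ 5, 2] i <
        ![0, 0, 0, 2, 0, 56, 0, 20, 2, 0, 0] j ∨
      ![2 ^ 17, 2 ^ 21, 2 ^ 21, 2 ^ 13, 1, 2 ^ 9, 1, 55, 19, 2 ^ 5, 2] j <
        ![0, 0, 0, 2, 0, 56, 0, 20, 2, 0, 0] i := by decide +kernel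
  rcases tab i j hij e1 with ⟨rfl, rfl⟩ | ⟨rfl, rfl⟩ | t | t
  · exact h.e6 M g h1 h2 h3
  · exact h.e6.symm M g h1 h2 h3
  · have := h.hi i; have := h.lo j; omega
  · have := h.hi j; have := h.lo i; omega

theorem asm (a2 : A2) (di : DI) (rd : ∀ Y Y', Base Y → Root Y → Dg Y' → NC Y Y')
    (dd : ∀ (Y Y' M : Subgroup G) g, Base Y → Deg Y → Big Y → Dg Y' → IsCoatom M → Y ≤ M →
      cS g Y' ≤ M → False)
    (pm : JobPM) (pn : JobPN) (pu : JobPU) (hf : ∃ Y, Fam Y) (tl : TL2) :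
    ∃ M : Fin 19 → Subgroup G, (∀ i, IsCoatom (M i)) ∧
      ∀ i j, (∃ g : G, (M i).map (MulAut.conj g).toMonoidHom = M j) → i = j := by
  obtain ⟨Y, hY⟩ := hf
  obtain ⟨Yd, hd⟩ := tl
  choose N hN hYN using fun i => (eq_top_or_exists_le_coatom (Y i)).resolve_left (hY.base i).ne_top
  obtain ⟨Nd, hNd, hYd⟩ := (eq_top_or_exists_le_coatom Yd).resolve_left hd.ne_top
  let f : Fin 7 ⊕ Option (Fin 11) → Subgroup G := Sum.elim P fun o => o.elim Nd N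
  have PN : ∀ i j g, cS g (P i) ≠ N j := fun i j g e =>
    a2 _ ((hY.base j).st (hYN j) (hN j).1) g (e ▸ cS_mono g (Q_le_P i))
  have DP : ∀ i g, cS g Nd ≠ P i := fun i g e => by
    obtain ⟨U, h1, h2, h3⟩ := pu i
    exact hd.not_le h1 h2 h3 g (e ▸ cS_mono g hYd)
  have DN : ∀ i g, cS g Nd ≠ N i := fun i g e => by
    have hle : cS g Yd ≤ N i := e ▸ cS_mono g hYd
    rcases hY.kind i with h | ⟨h, h'⟩
    · exact rd _ _ (hY.base i) h hd _ g (hN i).1 (hYN i) hle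
    · exact dd _ _ _ g (hY.base i) h h' hd (hN i) (hYN i) hle
  have hf : ∀ i j, (∃ g, cS g (f i) = f j) → i = j := by
    rintro (i | _ | i) (j | _ | j) ⟨g, e⟩
    · rw [pn i j g e]
    · exact absurd (cS_symm e) (DP i _)
    · exact absurd e (PN i j g)
    · exact absurd e (DP j g)
    · rfl
    · exact absurd e (DN j g)
    · exact absurd (cS_symm e) (PN j i _)
    · exact absurd (cS_symm e) (DN i _)
    · by_contra hij
      have hij' : j ≠ i := fun e' => hij (by rw [e'])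
      exact hY.nc di hij' (N j) g (hN j).1 (hYN j) (le_of_le_of_eq (cS_mono g (hYN i)) e)
  let E : Fin 19 ≃ Fin 7 ⊕ Option (Fin 11) := (Fintype.equivFinOfCardEq (by simp)).symm
  refine ⟨fun i => f (E i), fun i => ?_, fun i j h => E.injective (hf _ _ h)⟩
  show IsCoatom (f (E i))
  rcases E i with i | _ | i
  exacts [pm i, hNd, hN i]

theorem fin (p1 : P1) (bt : JobBT) (dim : JobDIM) (ja1 : JobA1) (ja2 : JobA2) (ja3 : JobA3)
    (jdi : JobDI) (je6 : JobE6X) (jrd : JobRD) (jdd : JobDD) (pm : JobPM) (pn : JobPN) (pu : JobPU)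
    (t0 : TD6) (t1 : TE6) (t2 : T2E6) (t3 : TA7) (t4 : TU8) (t5 : TA5) (t6 : TU6) (t7 : TD4)
    (t8 : T3D4) (t9 : TG2) (t10 : TNT) (tl : TL2) :
    ∃ M : Fin 19 → Subgroup G, (∀ i, IsCoatom (M i)) ∧
      ∀ i j, (∃ g : G, (M i).map (MulAut.conj g).toMonoidHom = M j) → i = j :=
  have a0 := (ja1 p1).1
  have a1 := (ja1 p1).2
  have a2 := ja2 p1 a1
  have a3 := ja3 p1 a0
  have di := jdi p1 a1
  asm a2 di (jrd p1 a3) (jdd p1 a1 a2 bt dim) pm pn pu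
    (fam (je6 p1 a3 di) t0 t1 t2 t3 t4 t5 t6 t7 t8 t9 t10) tl

end H36.E7M
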