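/- Slot E7T-CA: the configuration in the alternating group of degree thirteen. -/
import Cfsg.Agent.H40.E7TSpec
import Cfsg.Agent.H86.AltAut

set_option autoImplicit false
set_option maxRecDepth 100000

namespace H36.E7CA

open Equiv Equiv.Perm H40.E7T

/-- The group. -/
abbrev A13 : Type := alternatingGroup (Fin 13)

/-- A product of cycles. -/
def pm (L : List (List (Fin 13))) : Perm (Fin 13) := (L.map List.formPerm).prod

/-- An even product of cycles. -/
def al (L : List (List (Fin 13))) (h : sign (pm L) = 1 := by decide +kernel) : A13 :=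
  ⟨pm L, mem_alternatingGroup.2 h⟩

/-- The four three-cycles. -/
def a0 : Fin 4 → Perm (Fin 13) :=
  ![pm [[0, 1, 2]], pm [[3, 4, 5]], pm [[6, 7, 8]], pm [[9, 10, 11]]]

/-- The four three-cycles in the alternating group. -/
def a (i : Fin 4) : A13 :=
  ⟨a0 i, mem_alternatingGroup.2 ((by decide +kernel : ∀ i, sign (a0 i) = 1) i)⟩

theorem coe_ev (v : E4) : ((ev a v : A13) : Perm (Fin 13)) = ev a0 v := by
  simp only [ev, Subgroup.coe_mul, Subgroup.coe_pow]; rfl

theorem el : El a :=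
  ⟨fun i j => Subtype.ext ((by decide +kernel : ∀ i j, a0 i * a0 j = a0 j * a0 i) i j),
    fun i => Subtype.ext ((by decide +kernel : ∀ i, a0 i ^ 3 = 1) i)⟩

theorem supp : ∀ v : E4, (ev a0 v).support.card = 3 * cA v := by decide +kernel

theorem ord3 {g : A13} (h : g ^ 3 = 1) (h1 : (g : Perm (Fin 13)).support.card ≠ 0) :
    orderOf g = 3 :=
  haveI : Fact (Nat.Prime 3) := ⟨Nat.prime_three⟩
  orderOf_eq_prime h fun e => h1 (by rw [e]; simp)

theorem conj_of {r g : A13} (hr : orderOf r = 3) (hg : orderOf g = 3)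
    (h : (r : Perm (Fin 13)).support.card = (g : Perm (Fin 13)).support.card) {c : Perm (Fin 13)}
    (hc : sign c = -1) (hcr : c * r = r * c) : IsConj r g := by
  obtain ⟨m, h1, h2⟩ := H86.cycleType_of_orderOf_three ((Subgroup.orderOf_coe r).trans hr)
  obtain ⟨n, h3, h4⟩ := H86.cycleType_of_orderOf_three ((Subgroup.orderOf_coe g).trans hg)
  obtain rfl : m = n := by omega
  obtain ⟨s, hs⟩ := isConj_iff.1 (isConj_of_cycleType_eq (h1.trans h3.symm))
  rcases Int.units_eq_one_or (sign s) with e | e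
  · exact isConj_iff.2 ⟨⟨s, mem_alternatingGroup.2 e⟩, Subtype.ext hs⟩
  · refine isConj_iff.2 ⟨⟨s * c, mem_alternatingGroup.2 (by simp [e, hc])⟩, Subtype.ext ?_⟩
    change s * c * r * (s * c)⁻¹ = g
    rw [mul_assoc s, hcr, ← hs]; group

theorem cA_ne : ∀ v : E4, v ≠ 0 → 3 * cA v ≠ 0 := by decide +kernel

theorem ord_ev {v : E4} (hv : v ≠ 0) : orderOf (ev a v) = 3 :=
  ord3 (el.ev_cube v) (by rw [coe_ev, supp]; exact cA_ne v hv)

theorem conj_ev {g : A13} (hg : g ^ 3 = 1) {v : E4} (hv : v ≠ 0)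
    (h : (g : Perm (Fin 13)).support.card = 3 * cA v) : IsConj g (ev a v) := by
  obtain ⟨p, -, h0, h1, h2, h3⟩ := (by decide +kernel : ∀ v : E4, v ≠ 0 →
    ∃ p ∈ ([(![1, 0, 0, 0], pm [[11, 12]]), (![1, 1, 0, 0], pm [[11, 12]]),
      (![1, 1, 1, 0], pm [[11, 12]]), (![1, 1, 1, 1], pm [[0, 3], [1, 4], [2, 5]])] :
        List (E4 × Perm (Fin 13))),
      p.1 ≠ 0 ∧ cA p.1 = cA v ∧ sign p.2 = -1 ∧ p.2 * ev a0 p.1 = ev a0 p.1 * p.2) v hv
  rw [← coe_ev] at h3
  exact (conj_of (ord_ev h0) (ord3 hg (h ▸ cA_ne v hv)) (by rw [coe_ev, supp, h1, h]) h2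
    h3).symm.trans (conj_of (ord_ev h0) (ord_ev hv) (by rw [coe_ev, coe_ev, supp, supp, h1]) h2 h3)

theorem tri {v : E4} (hv : v ≠ 0) (t y : A13) (h : (t : Perm (Fin 13)) ^ 3 = 1 ∧
    (t : Perm (Fin 13)).support.card = 3 * cA v ∧ (y : Perm (Fin 13)) ^ 5 = 1 ∧
    (y : Perm (Fin 13)) ≠ 1 ∧ ((t : Perm (Fin 13)) * y) ^ 2 = 1) :
    ∃ t y : A13, IsConj t (ev a v) ∧ orderOf y = 5 ∧ (t * y) ^ 2 = 1 :=
  haveI : Fact (Nat.Prime 5) := ⟨Nat.prime_five⟩
  ⟨t, y, conj_ev (Subtype.ext h.1) hv h.2.1,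
    orderOf_eq_prime (Subtype.ext h.2.2.1) fun e => h.2.2.2.1 (congrArg Subtype.val e),
    Subtype.ext h.2.2.2.2⟩

theorem gen {x y : A13} (h1 : ∀ i : Fin 13, ∃ n < 13, (((x : Perm (Fin 13)) * y) ^ n) 0 = i)
    (h2 : (((x : Perm (Fin 13)) * y * x * y * y) ^ 7).support.card = 3) :
    Subgroup.closure {x, y} = ⊤ := by
  let K := (Subgroup.closure {x, y}).map (alternatingGroup (Fin 13)).subtype
  have hx : (x : Perm (Fin 13)) ∈ K := ⟨x, Subgroup.subset_closure (by simp), rfl⟩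
  have hy : (y : Perm (Fin 13)) ∈ K := ⟨y, Subgroup.subset_closure (by simp), rfl⟩
  have : MulAction.IsPretransitive K (Fin 13) := (MulAction.isPretransitive_iff_base 0).2 fun i => by
    obtain ⟨n, -, e⟩ := h1 i
    exact ⟨⟨_, pow_mem (mul_mem hx hy) n⟩, e⟩
  have k := alternatingGroup_le_of_isPreprimitive_of_isThreeCycle_mem (G := K)
    (MulAction.IsPreprimitive.of_prime_card (by rw [Nat.card_fin]; norm_num))
    (card_support_eq_three_iff.1 h2)
    (pow_mem (mul_mem (mul_mem (mul_mem (mul_mem hx hy) hx) hy) hy) 7)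
  refine eq_top_iff.2 fun g _ => ?_
  obtain ⟨w, hw, e⟩ := k g.2
  exact (Subtype.ext e : w = g) ▸ hw

theorem jobCA : JobCA := by
  refine ⟨a, ⟨el, fun v hv => ord_ev hv, fun v w _ hw e =>
    conj_ev (el.ev_cube v) hw (by rw [coe_ev, supp, e])⟩, ?_,
    al [[1, 8, 4], [2, 10, 12]], al [[0, 1, 2], [3, 4, 5], [6, 7, 8], [9, 10, 11]],
    conj_ev (Subtype.ext (by decide +kernel)) (by decide) (by decide +kernel),
    conj_ev (Subtype.ext (by decide +kernel)) (by decide) (by decide +kernel),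
    Subtype.ext (by decide +kernel), gen (by decide +kernel) (by decide +kernel)⟩
  rintro v (rfl | rfl | rfl)
  · exact tri (by decide) (al [[0, 1, 2]]) (al [[0, 4, 2, 3, 1]]) (by decide +kernel)
  · exact tri (by decide) (al [[0, 1, 2], [5, 6, 7]]) (al [[0, 4, 2, 3, 1], [5, 9, 7, 8, 6]])
      (by decide +kernel)
  · exact tri (by decide) (al [[0, 10, 8], [1, 2, 9], [3, 11, 6], [4, 5, 7]])
      (al [[1, 4, 2, 6, 3], [5, 9, 7, 10, 8]]) (by decide +kernel)

end H36.E7CA
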