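import Cfsg.Agent.H2.PrKit
import Cfsg.Agent.H87.BrPerm

/-! Simple groups with fewer than `p ^ 2` Sylow `p`-subgroups: definitions and job statements
(proofs on paper in `blueprints/NG.md`). -/

set_option autoImplicit false
set_option linter.unusedVariables false

namespace H36.NG

open Cfsg H87 H39 H2.PR

universe u

/-- The numbers: `a1 a2 b1 b2` count the non-exceptional characters of the four possible degrees,
`1 + p d` is the signed degree of the sum of the exceptional characters. -/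
structure Nm (p U K n e t a1 a2 b1 b2 : ℕ) (d : ℤ) : Prop where
  odd : Odd p
  UK : p = U * K + 1
  two : 2 ≤ U
  le : U ≤ K
  hn : n + K + 1 = p + U
  te : t * e + 1 = p
  e2 : 2 ≤ e
  cnt : 1 + a1 + a2 + b1 + b2 = e
  hd : d = U - 1 ∨ d = n ∨ d = -1 ∨ d = -(K + 1)
  eq : (t : ℤ) * (a1 * (U - 1) + a2 * n - b1 - b2 * (K + 1)) + d = -1
  d1 : 0 < a1 → t ∣ K
  d2 : 0 < b1 → t ∣ n + 1
  d3 : 0 < b2 → t ∣ U
  d4 : 2 ≤ t → d ≠ -1

section defs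

variable {G : Type*} [Group G]

/-- Degree `(U - 1) p + 1 = U (p - K)`. -/
noncomputable def A1 (p U : ℕ) (X : Finset (IrrCharacter G)) (δ : IrrCharacter G → ℤ) :
    Finset (IrrCharacter G) := X.filter fun χ => δ χ = 1 ∧ dg χ + p = U * p + 1

/-- Degree `n p + 1 = (p - K) (p + U)`. -/
noncomputable def A2 (p n : ℕ) (X : Finset (IrrCharacter G)) (δ : IrrCharacter G → ℤ) :
    Finset (IrrCharacter G) := X.filter fun χ => δ χ = 1 ∧ dg χ = n * p + 1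

/-- Degree `p - 1`. -/
noncomputable def B1 (p : ℕ) (X : Finset (IrrCharacter G)) (δ : IrrCharacter G → ℤ) :
    Finset (IrrCharacter G) := X.filter fun χ => δ χ = -1 ∧ dg χ + 1 = p

/-- Degree `(K + 1) p - 1 = K (p + U)`. -/
noncomputable def B2 (p K : ℕ) (X : Finset (IrrCharacter G)) (δ : IrrCharacter G → ℤ) :
    Finset (IrrCharacter G) := X.filter fun χ => δ χ = -1 ∧ dg χ + 1 = (K + 1) * p

/-- The configuration. -/
structure Cf (p U K n e t : ℕ) (P : Sylow p G) (X Y : Finset (IrrCharacter G))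
    (δ : IrrCharacter G → ℤ) (ε : ℤ) : Prop where
  simple : IsSimpleGroup G
  perf : commutator G = ⊤
  card : Nat.card (P : Subgroup G) = p
  he : (Cen (P : Subgroup G)).relIndex (Nor (P : Subgroup G)) = e
  br : Br p e t X Y δ ε
  UK : p = U * K + 1
  two : 2 ≤ U
  le : U ≤ K
  hn : n + K + 1 = p + U
  syl : Nat.card (Sylow p G) = n * p + 1

/-- The degrees in the principal block. -/
structure Ty (p U K n e t : ℕ) (X Y : Finset (IrrCharacter G)) (δ : IrrCharacter G → ℤ) (ε : ℤ)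
    (d : ℤ) : Prop where
  nm : Nm p U K n e t (A1 p U X δ).card (A2 p n X δ).card (B1 p X δ).card (B2 p K X δ).card d
  one_mem : one G ∈ X
  mem : ∀ χ ∈ X, χ = one G ∨ χ ∈ A1 p U X δ ∨ χ ∈ A2 p n X δ ∨ χ ∈ B1 p X δ ∨ χ ∈ B2 p K X δ
  hY : ∀ θ ∈ Y, -ε * (t * dg θ) = 1 + p * d

/-- Local data when `P` is self-centralizing: `N(P) = ⟨x, y⟩`, `lam` generates the linear
characters of `N(P)`. -/
structure Sc (p e h : ℕ) (P : Sylow p G) (x y : G) (lam : Nor (P : Subgroup G) →* ℂˣ) (ω : ℂ) :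
    Prop where
  lo : Lo p e h (P : Subgroup G) x y
  cen : Subgroup.center G = ⊥
  triv : ∀ z : Nor (P : Subgroup G), (z : G) ∈ (P : Subgroup G) → lam z = 1
  prim : IsPrimitiveRoot ω e
  val : ∀ hx : x ∈ Nor (P : Subgroup G), (lam ⟨x, hx⟩ : ℂ) = ω

/-- `d` has prime order `r ≠ p`, centralizes `P` and no other element of order `p`. -/
structure Iso (p r : ℕ) (P : Sylow p G) (d : G) : Prop where
  hr : r.Prime
  ne : r ≠ p
  ord : orderOf d = r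
  mem : d ∈ Cen (P : Subgroup G)
  only : ∀ z : G, orderOf z = p → z * d = d * z → z ∈ (P : Subgroup G)

variable (p : ℕ) in
/-- The Sylow subgroups centralized by `Y`. -/
def FS (Y : Subgroup G) : Set (Sylow p G) := {Q | Y ≤ Cen (Q : Subgroup G)}

/-- The common centralizer of two Sylow subgroups. -/
def ZZ {p : ℕ} (Q R : Sylow p G) : Subgroup G := Cen (Q : Subgroup G) ⊓ Cen (R : Subgroup G)

variable (p : ℕ) in
/-- A maximal common centralizer; `FS p Z` is called a line. -/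
def Mx (Z : Subgroup G) : Prop :=
  Z ≠ ⊥ ∧ ∃ Q R : Sylow p G, Q ≠ R ∧ Z = ZZ Q R ∧ ∀ R', R' ≠ Q → Z ≤ ZZ Q R' → ZZ Q R' = Z

/-- The group-theoretic part of the configuration. -/
structure Sm (G : Type*) [Group G] (p : ℕ) : Prop where
  simple : IsSimpleGroup G
  perf : commutator G = ⊤
  card : ∀ Q : Sylow p G, Nat.card (Q : Subgroup G) = p
  lt : Nat.card (Sylow p G) < p ^ 2

variable [Fintype G]

/-- The character induced from the `i`-th power of `lam`. -/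
noncomputable def LL {p : ℕ} {P : Sylow p G} (lam : Nor (P : Subgroup G) →* ℂˣ) (i : ℕ) : G → ℂ :=
  indFun (Nor (P : Subgroup G)) fun z => (lam z : ℂ) ^ i

/-- The inner product of two characters as a natural number; `mlt L ψ = mm L ψ` by `rfl`. -/
noncomputable def mm (L Ψ : G → ℂ) : ℕ := ⌊(classInner L Ψ).re⌋₊

theorem mlt_eq_mm (L : G → ℂ) (ψ : IrrCharacter G) : mlt L ψ = mm L ψ := rfl

/-- First list of facts for self-centralizing `P`. -/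
structure Mu1 (p n e t : ℕ) (P : Sylow p G) (X Y : Finset (IrrCharacter G))
    (δ : IrrCharacter G → ℤ) (ε : ℤ) (x : G) (lam : Nor (P : Subgroup G) →* ℂˣ) : Prop where
  card : Nat.card G = p * e * (n * p + 1)
  ord : orderOf x = e
  sing : ∀ g : G, p ∣ orderOf g → ∃ z ∈ (P : Subgroup G), z ≠ 1 ∧ IsConj g z
  cz : ∀ z g : G, orderOf z = p → g * z = z * g → g ∈ Subgroup.zpowers z
  chL : ∀ i, IsCharacter G (LL lam i)
  dgL : ∀ i, charDegree (LL lam i) = n * p + 1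
  vL : ∀ i g, p ∣ orderOf g → LL lam i g = 1
  one : ∀ i < e, mlt (LL lam i) (one G) = if i = 0 then 1 else 0
  out : ∀ ψ : IrrCharacter G, ψ ∉ X → ψ ∉ Y → ∀ g, p ∣ orderOf g → (ψ : G → ℂ) g = 0
  uni : ∀ Ψ, IsCharacter G Ψ → ∀ c : ℤ, (∀ g, p ∣ orderOf g → Ψ g = c) →
    ∀ θ ∈ Y, ∀ θ' ∈ Y, mlt Ψ θ = mlt Ψ θ'
  count : ∀ Ψ, IsCharacter G Ψ → ∀ c : ℤ, (∀ g, p ∣ orderOf g → Ψ g = c) →
    ∀ θ ∈ Y, ∑ χ ∈ X, δ χ * mlt Ψ χ - ε * mlt Ψ θ = c
  deg : ∀ Ψ, IsCharacter G Ψ → ∀ c : ℤ, (∀ g, p ∣ orderOf g → Ψ g = c) →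
    ∀ θ ∈ Y, ∑ χ ∈ X, mlt Ψ χ * dg χ + mlt Ψ θ * (t * dg θ) ≤ charDegree Ψ

/-- Second list of facts for self-centralizing `P`. -/
structure Mu2 (p e t : ℕ) (P : Sylow p G) (Y : Finset (IrrCharacter G)) (ε : ℤ) (x : G)
    (lam : Nor (P : Subgroup G) →* ℂˣ) (ω : ℂ) : Prop where
  add : ∀ Ψ, IsCharacter G Ψ → ∀ i,
    mm (LL lam i) Ψ = ∑ ψ : IrrCharacter G, mlt Ψ ψ * mlt (LL lam i) ψ
  sum : ∀ Ψ, IsCharacter G Ψ → ∀ c : ℤ, (∀ g, p ∣ orderOf g → Ψ g = c) →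
    (p : ℤ) * (∑ i ∈ Finset.range e, mm (LL lam i) Ψ : ℕ) = charDegree Ψ + (p - 1) * c
  sumY : ∀ θ ∈ Y,
    (p : ℤ) * (t * (∑ i ∈ Finset.range e, mlt (LL lam i) θ : ℕ)) = t * dg θ - (p - 1) * ε
  val : ∀ Ψ, IsCharacter G Ψ → ∀ b, ¬ e ∣ b →
    Ψ (x ^ b) = ∑ i ∈ Finset.range e, (mm (LL lam i) Ψ : ℂ) * ω ^ (i * b)
  flat : ∀ Ψ, IsCharacter G Ψ → (∀ b, ¬ e ∣ b → Ψ (x ^ b) = 0) → ∀ i < e,
    e * mm (LL lam i) Ψ = ∑ j ∈ Finset.range e, mm (LL lam j) Ψ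

/-- Everything for self-centralizing `P`. -/
structure All (p U K n e t h : ℕ) (P : Sylow p G) (X Y : Finset (IrrCharacter G))
    (δ : IrrCharacter G → ℤ) (ε d : ℤ) (x y : G) (lam : Nor (P : Subgroup G) →* ℂˣ) (ω : ℂ) :
    Prop where
  cf : Cf p U K n e t P X Y δ ε
  ty : Ty p U K n e t X Y δ ε d
  sc : Sc p e h P x y lam ω
  m1 : Mu1 p n e t P X Y δ ε x lam
  m2 : Mu2 p e t P Y ε x lam ω

/-- Class multiplication constants `K_u K_x → K_x'` for `x, x'` of order `p`. -/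
def KK (p n e : ℕ) (X Y : Finset (IrrCharacter G)) : Prop :=
  ∀ u : G, u ≠ 1 → ¬ p ∣ orderOf u → ∀ θ ∈ Y, ∃ k1 k2 : ℕ,
    (p * Nat.card (Subgroup.centralizer ({u} : Set G)) * k1 : ℂ) = e * (n * p + 1) *
      (∑ χ ∈ X, (χ : G → ℂ) u / dg χ - e * (θ : G → ℂ) u / dg θ) ∧
    (p * Nat.card (Subgroup.centralizer ({u} : Set G)) * k2 : ℂ) = e * (n * p + 1) *
      (∑ χ ∈ X, (χ : G → ℂ) u / dg χ + (p - e) * (θ : G → ℂ) u / dg θ)

/-- The same when only the degrees `1, U (p - K), p - 1` and `K (p + U) / t` occur. -/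
def KF (p U K n t : ℕ) (X Y : Finset (IrrCharacter G)) (δ : IrrCharacter G → ℤ) : Prop :=
  ∀ u : G, u ≠ 1 → ¬ p ∣ orderOf u → ∀ θ ∈ Y, ∃ (k1 k2 : ℕ) (z : ℤ), (θ : G → ℂ) u = z ∧
    ((k2 : ℤ) - k1) * Nat.card (Subgroup.centralizer ({u} : Set G)) = U * (p - K) * z ∧
    (t * k1 * Nat.card (Subgroup.centralizer ({u} : Set G)) : ℂ) =
      (n * p + 1) + (p + U) * ∑ χ ∈ A1 p U X δ, (χ : G → ℂ) u - (U + 1) * (p - K) * z ∧
    ∑ χ ∈ B1 p X δ, (χ : G → ℂ) u = 1 + ∑ χ ∈ A1 p U X δ, (χ : G → ℂ) u - z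

end defs

/-- Sums over the non-exceptional characters. -/
theorem Ty.sum_X {G : Type*} [Group G] {p U K n e t : ℕ} {X Y : Finset (IrrCharacter G)}
    {δ : IrrCharacter G → ℤ} {ε d : ℤ} (h : Ty p U K n e t X Y δ ε d) {M : Type*}
    [AddCommMonoid M] (f : IrrCharacter G → M) :
    ∑ χ ∈ X, f χ = f (one G) + ∑ χ ∈ A1 p U X δ, f χ + ∑ χ ∈ A2 p n X δ, f χ +
      ∑ χ ∈ B1 p X δ, f χ + ∑ χ ∈ B2 p K X δ, f χ := by
  classical
  have h1 := h.nm.UK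
  have h2 := h.nm.two
  have h3 := h.nm.le
  have h4 := h.nm.hn
  have hK : K < p := by nlinarith
  have h5 : 2 * p ≤ U * p := Nat.mul_le_mul_right p h2
  have h6 : U * p ≤ n * p := Nat.mul_le_mul_right p (by omega)
  have h7 : 3 * p ≤ (K + 1) * p := Nat.mul_le_mul_right p (by omega)
  rw [← Finset.sum_ite_eq_of_mem X (one G) f h.one_mem]
  simp only [A1, A2, B1, B2, Finset.sum_filter, ← Finset.sum_add_distrib]
  refine Finset.sum_congr rfl fun χ hχ => ?_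
  have h8 : one G = χ → dg χ = 1 := fun h => h ▸ dg_one
  rcases h.mem χ hχ with h9 | h9 | h9 | h9 | h9
  · have := h8 h9.symm
    rw [if_pos h9.symm, if_neg (by omega), if_neg (by omega), if_neg (by omega), if_neg (by omega)]
    simp
  all_goals
    have h9 := (Finset.mem_filter.1 h9).2
    rw [if_neg fun h => by have := h8 h; omega]
  · rw [if_pos h9, if_neg (by omega), if_neg (by omega), if_neg (by omega)]; simp
  · rw [if_neg (by omega), if_pos h9, if_neg (by omega), if_neg (by omega)]; simp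
  · rw [if_neg (by omega), if_neg (by omega), if_pos h9, if_neg (by omega)]; simp
  · rw [if_neg (by omega), if_neg (by omega), if_neg (by omega), if_pos h9]; simp

/-! ### Degrees and arithmetic -/

def JobTy : Prop :=
  ∀ (G : Type u) [Group G] [Fintype G] (p U K n e t : ℕ) [Fact p.Prime] (P : Sylow p G)
    (X Y : Finset (IrrCharacter G)) (δ : IrrCharacter G → ℤ) (ε : ℤ),
    Cf p U K n e t P X Y δ ε → ∃ d, Ty p U K n e t X Y δ ε d

def JobAr1 : Prop :=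
  ∀ (p U K n e t a1 a2 b2 r : ℕ) (d : ℤ), Nm p U K n e t a1 a2 0 b2 d → d ≠ -1 → 2 ≤ r →
    (0 < a1 → r ∣ U - 1) → (0 < a2 → r ∣ n) → (0 < b2 → r ∣ K + 1) → False

def JobAr2 : Prop :=
  ∀ (p U K n e t a1 b2 J : ℕ) (d : ℤ), Nm p U K n e t a1 0 0 b2 d → d ≠ -1 → d ≠ n →
    t * J = K * (t * b2 + if d = -(K + 1) then 1 else 0) →
    J ≤ (e - 1) * ((p - K) / (U + K)) + n / (U + K) →
    (U = 2 ∧ e = 2 ∧ a1 = 1 ∧ b2 = 0 ∧ d = -(K + 1)) ∨ (K = U ∧ t = U ∧ e = U)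

def JobAr3 : Prop :=
  ∀ (p U K n e t a1 b1 b2 : ℕ) (d : ℤ), Nm p U K n e t a1 0 b1 b2 d → d ≠ n → 0 < b1 → 2 ≤ t →
    d = -(K + 1) ∧ b2 = 0 ∧ t ∣ U + 1 ∧ ∃ κ, K = t * κ ∧ e = U * κ ∧ U * a1 + 1 = (U + 1) * κ

/-! ### The centralizer of `P` -/

def JobG1 : Prop :=
  ∀ (G : Type u) [Group G] [Finite G] (p : ℕ) [Fact p.Prime], Sm G p →
    (∀ (S : Set (Sylow p G)) (Q : Sylow p G), (∀ y ∈ (Q : Subgroup G), ∀ R ∈ S, y • R ∈ S) →
      (Q ∈ S → S.ncard % p = 1) ∧ (Q ∉ S → p ∣ S.ncard)) ∧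
    (∀ (Y : Subgroup G) (Q R : Sylow p G), Q ∈ FS p Y → R ∈ FS p Y →
      ∃ c ∈ Cen Y, c • Q = R) ∧
    (∀ (Z : Subgroup G) (g : G), Mx p Z → Mx p (Z.map (MulAut.conj g).toMonoidHom)) ∧
    (∀ (Y : Subgroup G) (g : G) (Q : Sylow p G),
      g • Q ∈ FS p (Y.map (MulAut.conj g).toMonoidHom) ↔ Q ∈ FS p Y) ∧
    (∀ Z : Subgroup G, Mx p Z → ∀ Q ∈ FS p Z, ∀ R ∈ FS p Z, Q ≠ R → ZZ Q R = Z) ∧
    (∀ Z : Subgroup G, Mx p Z → p + 1 ≤ (FS p Z).ncard ∧ (FS p Z).ncard % p = 1) ∧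
    (∀ (Y : Subgroup G) (Q R : Sylow p G), Y ≠ ⊥ → Q ∈ FS p Y → R ∈ FS p Y → Q ≠ R →
      ∃ Z, Mx p Z ∧ Y ≤ Z ∧ Q ∈ FS p Z) ∧
    ∀ Y : Subgroup G, FS p Y = Set.univ → Y = ⊥

def JobG1b : Prop :=
  ∀ (G : Type u) [Group G] [Finite G] (p : ℕ) [Fact p.Prime], Sm G p →
    ∀ (Y Z : Subgroup G) (Q : Sylow p G), Mx p Z → Y ≤ Z → Q ∈ FS p Z →
      FS p Y = FS p Z ∨ ∃ Z', Mx p Z' ∧ Y ≤ Z' ∧ Q ∈ FS p Z' ∧ Z' ≠ Z

def JobG2 : Prop :=
  ∀ (G : Type u) [Group G] [Finite G] (p : ℕ) [Fact p.Prime], Sm G p →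
    (∀ Z : Subgroup G, Mx p Z → (FS p Z).ncard = p + 1) ∧
    ∀ (Y Z Z' : Subgroup G) (Q : Sylow p G), Mx p Z → Mx p Z' → Z ≠ Z' → Q ∈ FS p Z →
      Q ∈ FS p Z' → Y ≤ Z → Y ≤ Z' → (p + 1) * (p + 2) ≤ 2 * (FS p Y).ncard

def JobG3 : Prop :=
  ∀ (G : Type u) [Group G] [Finite G] (p : ℕ) [Fact p.Prime], Sm G p →
    ∀ (Z Z' : Subgroup G) (Q : Sylow p G), Mx p Z → Mx p Z' → Z ≠ Z' → Q ∈ FS p Z →
      Q ∈ FS p Z' → Z ⊓ Z' = ⊥

def JobG4 : Prop :=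
  ∀ (G : Type u) [Group G] [Finite G] (p : ℕ) [Fact p.Prime], Sm G p →
    ∀ P : Sylow p G, ¬ Cen (P : Subgroup G) ≤ (P : Subgroup G) → ∃ r d, Iso p r P d

def JobCg : Prop :=
  ∀ (G : Type u) [Group G] [Fintype G] (p r : ℕ) [Fact p.Prime] (P : Sylow p G) (d : G),
    Nat.card (P : Subgroup G) = p → Iso p r P d →
    (Cen (P : Subgroup G)).relIndex (Nor (P : Subgroup G)) + 1 < p →
    ∀ (χ : IrrCharacter G) (c : ℤ), (∀ g, p ∣ orderOf g → (χ : G → ℂ) g = c) →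
      (r : ℤ) ∣ dg χ - c

def JobEx : Prop :=
  ∀ (G : Type u) [Group G] [Fintype G] (p r : ℕ) [Fact p.Prime] (P : Sylow p G) (d : G),
    Nat.card (P : Subgroup G) = p → Iso p r P d →
    (Cen (P : Subgroup G)).relIndex (Nor (P : Subgroup G)) + 1 = p →
    ∀ (χ : IrrCharacter G) (c : ℤ), (∀ g, p ∣ orderOf g → (χ : G → ℂ) g = c) →
      (∀ i, ¬ r ∣ i → (χ : G → ℂ) (d ^ i) = c) ∨
        ∀ i, ¬ r ∣ i → (χ : G → ℂ) (d ^ i) = (1 - p) * c

def JobD : Prop :=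
  ∀ (G : Type u) [Group G] [Fintype G] (p U K n e t : ℕ) [Fact p.Prime] (P : Sylow p G)
    (X Y : Finset (IrrCharacter G)) (δ : IrrCharacter G → ℤ) (ε : ℤ),
    Cf p U K n e t P X Y δ ε → Cen (P : Subgroup G) ≤ (P : Subgroup G)

/-! ### Self-centralizing `P` -/

def JobM1 : Prop :=
  ∀ (G : Type u) [Group G] [Fintype G] (p U K n e t : ℕ) [Fact p.Prime] (P : Sylow p G)
    (X Y : Finset (IrrCharacter G)) (δ : IrrCharacter G → ℤ) (ε : ℤ),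
    Cf p U K n e t P X Y δ ε → Cen (P : Subgroup G) ≤ (P : Subgroup G) →
    ∃ h x y lam ω, Sc p e h P x y lam ω ∧ Mu1 p n e t P X Y δ ε x lam

def JobM2 : Prop :=
  ∀ (G : Type u) [Group G] [Fintype G] (p U K n e t h : ℕ) [Fact p.Prime] (P : Sylow p G)
    (X Y : Finset (IrrCharacter G)) (δ : IrrCharacter G → ℤ) (ε : ℤ) (x y : G)
    (lam : Nor (P : Subgroup G) →* ℂˣ) (ω : ℂ), Cf p U K n e t P X Y δ ε →
    Sc p e h P x y lam ω → Mu2 p e t P Y ε x lam ω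

/-- A statement about the configuration `All`. -/
def Job (T : ∀ (G : Type u) [Group G] [Fintype G] (p U K n e t : ℕ)
    (X Y : Finset (IrrCharacter G)) (δ : IrrCharacter G → ℤ) (d : ℤ), Prop) : Prop :=
  ∀ (G : Type u) [Group G] [Fintype G] (p U K n e t h : ℕ) [Fact p.Prime] (P : Sylow p G)
    (X Y : Finset (IrrCharacter G)) (δ : IrrCharacter G → ℤ) (ε d : ℤ) (x y : G)
    (lam : Nor (P : Subgroup G) →* ℂˣ) (ω : ℂ), All p U K n e t h P X Y δ ε d x y lam ω →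
    T G p U K n e t X Y δ d

def JobA2 : Prop := Job.{u} fun _ _ _ p _ _ n _ _ X _ δ d => (A2 p n X δ).card = 0 ∧ d ≠ n

def JobB0 : Prop := Job.{u} fun _ _ _ p U K n e _ X _ δ d =>
  (A2 p n X δ).card = 0 → d ≠ n → (B1 p X δ).card = 0 → d ≠ -1 →
    U = 2 ∧ e = 2 ∧ (A1 p U X δ).card = 1 ∧ (B2 p K X δ).card = 0 ∧ d = -(K + 1)

def JobDet : Prop := Job.{u} fun _ _ _ p _ _ _ _ t X _ δ d =>
  (0 < (B1 p X δ).card ∨ d = -1) → 2 ≤ t ∧ 0 < (B1 p X δ).card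

def JobK : Prop := Job.{u} fun _ _ _ p _ _ n e t X Y _ _ => 2 ≤ t → KK p n e X Y

def JobKF : Prop := Job.{u} fun _ _ _ p U K n e t X Y δ d =>
  KK p n e X Y → (A2 p n X δ).card = 0 → (B2 p K X δ).card = 0 → d = -(K + 1) → t ∣ K →
    KF p U K n t X Y δ

def JobF1 : Prop := Job.{u} fun _ _ _ p U K n e t X Y δ d =>
  KF p U K n t X Y δ → (A2 p n X δ).card = 0 → (B2 p K X δ).card = 0 → d = -(K + 1) →
    ∀ κ, K = t * κ → e = U * κ → U * (A1 p U X δ).card + 1 = (U + 1) * κ → κ = 1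

def JobF2 : Prop := Job.{u} fun _ _ _ p U K n e t X Y δ d =>
  KF p U K n t X Y δ → (A2 p n X δ).card = 0 → (B2 p K X δ).card = 0 → d = -(K + 1) →
    K = U + 1 → t = K → e = U → (A1 p U X δ).card = 1 → U ≤ 3

def JobE1 : Prop := Job.{u} fun G _ _ p U K n e t X Y δ d =>
  KF p U K n t X Y δ → (A2 p n X δ).card = 0 → (B2 p K X δ).card = 0 → d = -(K + 1) →
    U = 2 → e = 2 → (A1 p U X δ).card = 1 → (B1 p X δ).card = 0 →
    ∃ j : G, orderOf j = 2 ∧ Nat.card (Subgroup.centralizer ({j} : Set G)) = p + 1 ∧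
      ∀ u : G, u ≠ 1 → orderOf u ∣ p + 1 → IsConj j u

def JobE2 : Prop :=
  ∀ (G : Type u) [Group G] [Finite G] [IsSimpleGroup G] (p : ℕ), p.Prime → 3 < p →
    Nat.card G = p * (p + 1) * (p + 2) → ∀ j : G, orderOf j = 2 →
    Nat.card (Subgroup.centralizer ({j} : Set G)) = p + 1 →
    (∀ u : G, u ≠ 1 → orderOf u ∣ p + 1 → IsConj j u) →
    (∃ k : ℕ, p + 1 = 2 ^ k) ∧ ∃ (F : Type) (_ : Field F) (_ : Fintype F),
      Fintype.card F = p + 1 ∧ Nonempty (G ≃* Matrix.ProjectiveSpecialLinearGroup (Fin 2) F)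

/-! ### The rows -/

/-- The list of S4340. -/
def Lst (S : Type u) [Group S] (p : ℕ) : Prop :=
  (∃ (F : Type) (_ : Field F) (_ : Fintype F), Fintype.card F = p ∧
      Nonempty (S ≃* Matrix.ProjectiveSpecialLinearGroup (Fin 2) F)) ∨
    (p = 13 ∧ ∃ (F : Type) (_ : Field F) (_ : Fintype F), Fintype.card F = 3 ∧
      Nonempty (S ≃* Matrix.ProjectiveSpecialLinearGroup (Fin 3) F)) ∨
    (3 < p ∧ (∃ k : ℕ, p = 2 ^ k + 1) ∧ ∃ (F : Type) (_ : Field F) (_ : Fintype F),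
      Fintype.card F = p - 1 ∧ Nonempty (S ≃* Matrix.ProjectiveSpecialLinearGroup (Fin 2) F)) ∨
    (3 < p ∧ (∃ k : ℕ, p + 1 = 2 ^ k) ∧ ∃ (F : Type) (_ : Field F) (_ : Fintype F),
      Fintype.card F = p + 1 ∧ Nonempty (S ≃* Matrix.ProjectiveSpecialLinearGroup (Fin 2) F))

/-- The Sylow numbers of the groups of the list. -/
def Val (p m : ℕ) : Prop :=
  (3 < p ∧ m = p + 1) ∨ (p = 13 ∧ m = 144) ∨
    (3 < p ∧ (∃ k : ℕ, p = 2 ^ k + 1) ∧ 2 * m = 2 + (p - 3) * p) ∨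
    (3 < p ∧ (∃ k : ℕ, p + 1 = 2 ^ k) ∧ 2 * m = 2 + (p + 3) * p)

/-- The Sylow numbers of the groups of the list. -/
def JobRev : Prop :=
  ∀ (S : Type u) [Group S] [Finite S] [IsSimpleGroup S], ¬ IsMulCommutative S →
    ∀ (p : ℕ) [Fact p.Prime], p ∣ Nat.card S →
    (∀ (F : Type) [Field F] [Fintype F], Fintype.card F = p →
      Nonempty (S ≃* Matrix.ProjectiveSpecialLinearGroup (Fin 2) F) →
      3 < p ∧ Nat.card (Sylow p S) = p + 1) ∧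
    (∀ (F : Type) [Field F] [Fintype F], 3 < p → (∃ k : ℕ, p = 2 ^ k + 1) →
      Fintype.card F = p - 1 → Nonempty (S ≃* Matrix.ProjectiveSpecialLinearGroup (Fin 2) F) →
      2 * Nat.card (Sylow p S) = 2 + (p - 3) * p) ∧
    (Lst S p → Nat.card (Sylow p S) < p ^ 2)

def JobNum : Prop :=
  ∀ (S : Type u) [Group S] [Finite S] [IsSimpleGroup S], ¬ IsMulCommutative S →
    ∀ (p : ℕ) [Fact p.Prime], p ∣ Nat.card S → Nat.card (Sylow p S) < p ^ 2 →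
      Val p (Nat.card (Sylow p S))

/-- Reduction to simple groups. -/
def JobRed : Prop :=
  ∀ (G : Type u) [Group G] [Finite G] (p : ℕ) [Fact p.Prime], Nat.card (Sylow p G) < p ^ 2 →
    (IsPSolvable p G ∧ ∃ q k : ℕ, q.Prime ∧ Nat.card (Sylow p G) = q ^ k) ∨
    (¬ IsPSolvable p G ∧ ∃ (S : Type u) (_ : Group S) (_ : Finite S), IsSimpleGroup S ∧
      ¬ IsMulCommutative S ∧ p ∣ Nat.card S ∧ Nat.card (Sylow p S) = Nat.card (Sylow p G))

end H36.NG
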