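import Cfsg.Agent.H36.O84Kit

/-! Tower O84: assembly of the abstract part from the jobs. -/

set_option autoImplicit false

namespace H36.O84

open Matrix

universe u

theorem cen_bot {Γ : Type*} [Group Γ] (S : Sys Γ) {J : Subgroup Γ} (hT : S.T ≤ J)
    (hs : IsSimpleGroup J) (hn : ¬ ∀ x y : J, x * y = y * x) :
    Subgroup.centralizer (J : Set Γ) = ⊥ := by
  rw [eq_bot_iff]
  intro g hg
  have hc : ∀ x ∈ J, x * g = g * x := fun x hx => (Subgroup.mem_centralizer_iff.1 hg) x hx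
  have hA : Act S.τ g 1 := by
    intro a
    rw [Matrix.one_mulVec, ← hc _ (hT ⟨_, rfl⟩), mul_inv_cancel_right]
  have hJ : g ∈ J := hT (S.cT g hA)
  rcases (inferInstance : (Subgroup.center J).Normal).eq_bot_or_eq_top with h | h
  · have : (⟨g, hJ⟩ : J) ∈ Subgroup.center J := by
      rw [Subgroup.mem_center_iff]
      intro x
      exact Subtype.ext (hc x x.2)
    rw [h, Subgroup.mem_bot] at this
    exact Subgroup.mem_bot.2 (congrArg Subtype.val this)
  · exfalso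
    apply hn
    intro x y
    have : y ∈ Subgroup.center J := h ▸ Subgroup.mem_top y
    exact Subgroup.mem_center_iff.1 this x

theorem nab_of_equiv {A B : Type*} [Group A] [Group B] (e : A ≃* B)
    (h : ¬ ∀ x y : B, x * y = y * x) : ¬ ∀ x y : A, x * y = y * x := by
  intro h'
  apply h
  intro x y
  have := congrArg e (h' (e.symm x) (e.symm y))
  simpa using this

theorem fam_of (jNN : JobNN) (jFR : JobFR) {Γ : Type} [Group Γ] [Finite Γ] (S : Sys Γ)
    {Om : Type u} [Group Om] (m : Mod Om) (c : Certs) (cnt : CNT S) (h5 : U5 S Om)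
    (hE : TwoOm Γ Om) : Nonempty (Fam Γ Om) := by
  obtain ⟨H1, H2, e1, e2, hnc⟩ := hE
  obtain ⟨g1, i1, k1, gd1⟩ := h5 H1 e1
  obtain ⟨g2, i2, k2, gd2⟩ := h5 H2 e2
  have hnc' : ¬ ∃ g, cS g (S.J i1) = S.J i2 := by
    rintro ⟨g, hg⟩
    refine hnc ⟨g2⁻¹ * g * g1, ?_⟩
    rw [← cS_cS, ← cS_cS, k1, hg, ← k2, cS_inv_cS]
  have hnc'' : ¬ ∃ g, cS g (S.J i2) = S.J i1 := by
    rintro ⟨g, hg⟩
    exact hnc' ⟨g⁻¹, by rw [← hg, cS_inv_cS]⟩
  have hne : i1 ≠ i2 := by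
    rintro rfl
    exact hnc' ⟨1, cS_one _⟩
  have hcov : ∀ i : Fin 2, i = i1 ∨ i = i2 := by
    intro i
    have := i.2; have := i1.2; have := i2.2
    have h3 : i1.val ≠ i2.val := fun h => hne (Fin.ext h)
    rw [Fin.ext_iff, Fin.ext_iff]; omega
  have iso : ∀ i, Nonempty (S.J i ≃* Om) := by
    intro i
    rcases hcov i with rfl | rfl
    · obtain ⟨e⟩ := e1
      exact ⟨(MulEquiv.subgroupCongr k1).symm.trans ((cSEquiv g1 H1).symm.trans e)⟩
    · obtain ⟨e⟩ := e2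
      exact ⟨(MulEquiv.subgroupCongr k2).symm.trans ((cSEquiv g2 H2).symm.trans e)⟩
  have gd : ∀ i, S.Good (S.J i) := by
    intro i
    rcases hcov i with rfl | rfl
    · exact gd1
    · exact gd2
  refine ⟨⟨S.J, iso, fun H hH => ?_, ?_, fun i => ?_, fun i => ?_⟩⟩
  · obtain ⟨g, i, h, -⟩ := h5 H hH
    exact ⟨i, g, h⟩
  · intro i j hij
    rcases hcov i with rfl | rfl <;> rcases hcov j with h | h
    · exact h.symm
    · exact absurd (h ▸ hij) hnc'
    · exact absurd (h ▸ hij) hnc''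
    · exact h.symm
  · obtain ⟨e⟩ := iso i
    have := m.simple
    exact cen_bot S (gd i).1 e.isSimpleGroup (nab_of_equiv e m.nab)
  · obtain ⟨e⟩ := iso i
    refine jFR Γ S.T (S.J i) (625 * 192) (nIx i) (gd i).1 S.card_T ?_ (gd i).2 ?_
    · rw [Nat.card_congr e.toEquiv]; exact m.n55
    · rw [jNN Γ S i c.cr c.cw c.cd c.cs cnt (gd i)]
      fin_cases i <;> simp [nSt, nIx]

theorem final_of (jU3 : JobU3) (jHYP : JobHYP) (jCNT : JobCNT) (jNODE : JobNODE)
    (jU5a : JobU5a.{u}) (jU5 : JobU5.{u}) (jNN : JobNN) (jFR : JobFR) (jFS : JobFS)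
    (jPFT : JobPFT.{u}) (jSYL : JobSYL) (jCL : JobCL.{u})
    {Γ : Type} [Group Γ] [Finite Γ] (S : Sys Γ) {Om : Type u} [Group Om] (m : Mod Om) (c : Certs)
    (hE : TwoOm Γ Om) : Concl Γ Om := by
  have h5 : U5 S Om := jU5 Γ S Om c.cr c.cq
    (jU5a Γ S Om m (jU3 Γ S c.c5) (jNODE Γ S c.cr (jHYP Γ S)))
  obtain ⟨F⟩ := fam_of jNN jFR S m c (jCNT Γ S) h5 hE
  exact jCL Γ Om F (jPFT Γ Om F m.simple m.nab (jFS Γ)) (jSYL Γ)

end H36.O84
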