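import Cfsg.Agent.H36.O84Asm
import Cfsg.Agent.H25.O84TR
import Cfsg.Agent.H81.O84U3
import Cfsg.Agent.H45.O84Hyp
import Cfsg.Agent.H88.O84Cnt
import Cfsg.Agent.H15.O84Node
import Cfsg.Agent.H59.O84U5a
import Cfsg.Agent.H69.O84U5
import Cfsg.Agent.H87.O84NN
import Cfsg.Agent.H5.O84FR
import Cfsg.Agent.H10.O84FS
import Cfsg.Agent.H55.O84PFT
import Cfsg.Agent.H61.O84Syl
import Cfsg.Agent.H76.O84CL

/-! Tower O84: the abstract theorem, all glue jobs plugged in. -/

set_option autoImplicit false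

namespace H36.O84

universe u

theorem final {Γ : Type} [Group Γ] [Finite Γ] (S : Sys Γ) {Om : Type u} [Group Om] (m : Mod Om)
    (c : Certs) (hE : TwoOm Γ Om) : Concl Γ Om :=
  final_of H81.O84U3.jobU3 H45.O84H.jobHYP H88.O84Cnt.jobCNT H15.O84.jobNODE H59.O84U5a.jobU5a
    H69.O84U5.jobU5 H87.O84NN.jobNN H5.O84FR.jobFR H10.O84FS.jobFS H55.O84PFT.jobPFT
    H61.O84.jobSYL H76.O84CL.jobCL S m c hE

/-- with the transport of `Sys` -/
theorem final' {Γ Γ' : Type} [Group Γ] [Group Γ'] [Finite Γ'] (S : Nonempty (Sys Γ))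
    (e : Nonempty (Γ ≃* Γ')) {Om : Type u} [Group Om] (m : Nonempty (Mod Om))
    (c : Certs) (hE : TwoOm Γ' Om) : Concl Γ' Om := by
  obtain ⟨S⟩ := S
  obtain ⟨e⟩ := e
  obtain ⟨m⟩ := m
  obtain ⟨S'⟩ := H25.O84TR.jobTR Γ Γ' S e
  exact final S' m c hE

/-- transport of the model along an isomorphism -/
noncomputable def Mod.map {H : Type*} {H' : Type*} [Group H] [Group H'] (m : Mod H) (e : H ≃* H') :
    Mod H' where
  fin := by have := m.fin; exact Finite.of_equiv _ e.toEquiv
  simple := by have := m.simple; exact e.symm.isSimpleGroup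
  nab := nab_of_equiv e.symm m.nab
  n55 := by rw [← Nat.card_congr e.toEquiv]; exact m.n55
  T0 := m.T0.map e.toMonoidHom
  A i := (m.A i).map e.toMonoidHom
  Ti i := (m.Ti i).map e.toMonoidHom
  c i := e (m.c i)
  s i := e (m.s i)
  tcomm := by
    rintro _ ⟨x, hx, rfl⟩ _ ⟨y, hy, rfl⟩
    rw [← map_mul, m.tcomm x hx y hy, map_mul]
  tcard := by rw [Subgroup.card_map_of_injective e.injective]; exact m.tcard
  acard i := by rw [Subgroup.card_map_of_injective e.injective]; exact m.acard i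
  aperf i := by rw [← Subgroup.map_commutator, m.aperf]
  cT i := ⟨_, m.cT i, rfl⟩
  cA i := ⟨_, m.cA i, rfl⟩
  c1 i := fun h => m.c1 i (e.injective (h.trans (map_one e).symm))
  ancl i := by
    refine (Subgroup.map_mono (m.ancl i)).trans ?_
    rw [MonoidHom.map_closure]
    apply Subgroup.closure_mono
    rintro _ ⟨_, ⟨x, hx, rfl⟩, rfl⟩
    exact ⟨e x, ⟨x, hx, rfl⟩, by simp⟩
  tle i := Subgroup.map_mono (m.tle i)
  ticard i := by rw [Subgroup.card_map_of_injective e.injective]; exact m.ticard i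
  acen i := by
    rintro _ ⟨x, hx, rfl⟩ _ ⟨y, hy, rfl⟩
    rw [← map_mul, m.acen i x hx y hy, map_mul]
  gen := by
    rw [← Subgroup.map_iSup, m.gen]
    exact Subgroup.map_top_of_surjective _ e.surjective
  sA i := ⟨_, m.sA i, rfl⟩
  sc i := by rw [← map_inv, ← map_mul, ← map_mul, m.sc, map_inv]
  braid k hk := by
    rintro _ ⟨t, ht, rfl⟩
    simpa using congrArg e (m.braid k hk t ht)
  comm j k hj hk := by
    rintro _ ⟨t, ht, rfl⟩
    simpa using congrArg e (m.comm j k hj hk t ht)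
  inter t ht := by
    have : e.symm t = 1 := m.inter _ fun i => by
      obtain ⟨x, hx, hxt⟩ := ht i
      have : x = e.symm t := by rw [← hxt]; simp
      exact this ▸ hx
    simpa using congrArg e this
  ncard := by
    rw [← m.ncard, ← Subgroup.map_equiv_normalizer_eq]
    exact Subgroup.card_map_of_injective e.injective

end H36.O84
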