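import Cfsg.Agent.H36.O84Spec

/-! Tower O84: basic lemmas on `Act` and `cS`. -/

set_option autoImplicit false

namespace H36.O84

open Matrix

section
variable {Γ : Type*} [Group Γ]

theorem mem_cS {g x : Γ} {H : Subgroup Γ} : x ∈ cS g H ↔ g⁻¹ * x * g ∈ H := by
  constructor
  · rintro ⟨y, hy, rfl⟩
    simpa [mul_assoc] using hy
  · intro h
    exact ⟨_, h, by simp [mul_assoc]⟩

theorem conj_mem_cS {g x : Γ} {H : Subgroup Γ} (h : x ∈ H) : g * x * g⁻¹ ∈ cS g H :=
  ⟨x, h, rfl⟩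

theorem cS_cS (g h : Γ) (H : Subgroup Γ) : cS g (cS h H) = cS (g * h) H := by
  ext x; simp only [mem_cS, _root_.mul_inv_rev, mul_assoc]

theorem cS_one (H : Subgroup Γ) : cS 1 H = H := by
  ext x; simp

theorem cS_inv_cS (g : Γ) (H : Subgroup Γ) : cS g⁻¹ (cS g H) = H := by
  rw [cS_cS, inv_mul_cancel, cS_one]

theorem cS_mono (g : Γ) {H K : Subgroup Γ} (h : H ≤ K) : cS g H ≤ cS g K := Subgroup.map_mono h

theorem card_cS (g : Γ) (H : Subgroup Γ) : Nat.card (cS g H) = Nat.card H :=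
  Subgroup.card_map_of_injective (MulAut.conj g).injective

theorem cS_inf (g : Γ) (H K : Subgroup Γ) : cS g (H ⊓ K) = cS g H ⊓ cS g K := by
  ext x; simp only [mem_cS, Subgroup.mem_inf]

theorem cS_iSup {ι : Sort*} (g : Γ) (H : ι → Subgroup Γ) : cS g (⨆ i, H i) = ⨆ i, cS g (H i) :=
  Subgroup.map_iSup _ _

theorem mem_normalizer_iff_cS {g : Γ} {H : Subgroup Γ} :
    g ∈ Subgroup.normalizer (H : Set Γ) ↔ cS g H = H := by
  constructor
  · intro h
    ext x
    rw [mem_cS]
    have := (Subgroup.mem_normalizer_iff.1 h) (g⁻¹ * x * g)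
    simpa [mul_assoc] using this
  · intro h
    rw [Subgroup.mem_normalizer_iff]
    intro x
    constructor
    · intro hx
      have := conj_mem_cS (g := g) (show x ∈ H from hx)
      rw [h] at this; exact this
    · intro hx
      have hx' : g * x * g⁻¹ ∈ cS g H := by rw [h]; exact hx
      rw [mem_cS] at hx'
      simpa [mul_assoc] using hx'

theorem cS_eq_self_of_mem {g : Γ} {H : Subgroup Γ} (h : g ∈ H) : cS g H = H :=
  mem_normalizer_iff_cS.1 (Subgroup.le_normalizer h)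

theorem cS_normalizer (g : Γ) (H : Subgroup Γ) :
    cS g (Subgroup.normalizer (H : Set Γ)) = Subgroup.normalizer (cS g H : Set Γ) := by
  ext x
  rw [mem_cS, mem_normalizer_iff_cS, mem_normalizer_iff_cS]
  constructor
  · intro h
    have := congrArg (cS g) h
    rw [cS_cS] at this
    rw [cS_cS, ← this]; congr 1; group
  · intro h
    have := congrArg (cS g⁻¹) h
    rw [cS_cS, cS_cS, cS_inv_cS] at this
    exact this

theorem mem_normalizer_of_cS_le [Finite Γ] {g : Γ} {H : Subgroup Γ} (h : cS g H ≤ H) :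
    g ∈ Subgroup.normalizer (H : Set Γ) :=
  mem_normalizer_iff_cS.2 (Subgroup.eq_of_le_of_card_ge h (card_cS g H).ge)

/-- the conjugate subgroup is isomorphic -/
noncomputable def cSEquiv (g : Γ) (H : Subgroup Γ) : H ≃* cS g H :=
  H.equivMapOfInjective _ (MulAut.conj g).injective

variable {τ : Multiplicative V →* Γ}

theorem τ_add (a b : V) : τ (Multiplicative.ofAdd (a + b)) =
    τ (Multiplicative.ofAdd a) * τ (Multiplicative.ofAdd b) := by
  rw [ofAdd_add, map_mul]

theorem τ_neg (a : V) : τ (Multiplicative.ofAdd (-a)) = (τ (Multiplicative.ofAdd a))⁻¹ := by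
  rw [ofAdd_neg, map_inv]

theorem τ_zero : τ (Multiplicative.ofAdd 0) = 1 := by rw [ofAdd_zero, map_one]

theorem τ_comm (a b : V) : τ (Multiplicative.ofAdd a) * τ (Multiplicative.ofAdd b) =
    τ (Multiplicative.ofAdd b) * τ (Multiplicative.ofAdd a) := by
  rw [← τ_add, ← τ_add, add_comm]

theorem τ_nsmul (n : ℕ) (a : V) :
    τ (Multiplicative.ofAdd (((n : ℕ) : ZMod 5) • a)) = τ (Multiplicative.ofAdd a) ^ n := by
  rw [Nat.cast_smul_eq_nsmul, ofAdd_nsmul, map_pow]

theorem Act.one : Act τ 1 1 := by intro a; simp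

theorem Act.mul {g h : Γ} {M N : M4} (hg : Act τ g M) (hh : Act τ h N) : Act τ (g * h) (M * N) := by
  intro a
  rw [← Matrix.mulVec_mulVec, ← hg, ← hh]; group

theorem Act.pow {g : Γ} {M : M4} (hg : Act τ g M) (n : ℕ) : Act τ (g ^ n) (M ^ n) := by
  induction n with
  | zero => simpa using Act.one
  | succ n ih => rw [pow_succ, pow_succ]; exact ih.mul hg

theorem Act.of_mem {g : Γ} (hg : g ∈ τ.range) : Act τ g 1 := by
  obtain ⟨b, rfl⟩ := hg
  intro a
  rw [Matrix.one_mulVec, ← map_mul, mul_comm b, map_mul, mul_inv_cancel_right]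

theorem Act.unique (hτ : Function.Injective τ) {g : Γ} {M N : M4} (h1 : Act τ g M)
    (h2 : Act τ g N) : M = N := by
  have h : ∀ a, M *ᵥ a = N *ᵥ a := fun a =>
    Multiplicative.ofAdd.injective (hτ ((h1 a).symm.trans (h2 a)))
  exact Matrix.toLin'.injective (LinearMap.ext h)

/-- two elements acting equally on the torus have the same matrix -/
theorem Act.eq_of_conj (hτ : Function.Injective τ) {g h : Γ} {M N : M4} (h1 : Act τ g M)
    (h2 : Act τ h N) (e : ∀ t ∈ τ.range, g * t * g⁻¹ = h * t * h⁻¹) : M = N :=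
  Act.unique hτ h1 fun a => (e _ ⟨_, rfl⟩).trans (h2 a)

theorem Act.isUnit (hτ : Function.Injective τ) {g : Γ} {M : M4} (h : Act τ g M) : IsUnit M := by
  haveI : Fact (Nat.Prime 5) := ⟨by norm_num⟩
  refine (Matrix.mulVec_injective_iff_isUnit (A := M)).1 ?_
  intro a b hab
  have : g * τ (Multiplicative.ofAdd a) * g⁻¹ = g * τ (Multiplicative.ofAdd b) * g⁻¹ := by
    rw [h a, h b, hab]
  exact Multiplicative.ofAdd.injective (hτ (mul_left_cancel (mul_right_cancel this)))

theorem Act.inv (hτ : Function.Injective τ) {g : Γ} {M : M4} (h : Act τ g M) : Act τ g⁻¹ M⁻¹ := by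
  have hu := h.isUnit hτ
  intro a
  have := h (M⁻¹ *ᵥ a)
  rw [Matrix.mulVec_mulVec, Matrix.mul_nonsing_inv _ ((Matrix.isUnit_iff_isUnit_det _).1 hu),
    Matrix.one_mulVec] at this
  rw [← this]; group

theorem Act.mem_normalizer (hτ : Function.Injective τ) {g : Γ} {M : M4} (h : Act τ g M) :
    g ∈ Subgroup.normalizer (τ.range : Set Γ) := by
  rw [Subgroup.mem_normalizer_iff]
  intro x
  constructor
  · rintro ⟨a, rfl⟩
    exact ⟨_, (h a.toAdd).symm⟩
  · rintro ⟨a, ha⟩
    have := h.inv hτ a.toAdd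
    refine ⟨_, this.symm.trans ?_⟩
    have e : τ (Multiplicative.ofAdd a.toAdd) = g * x * g⁻¹ := ha
    rw [e]; group

theorem exists_act (hτ : Function.Injective τ) {g : Γ}
    (hg : g ∈ Subgroup.normalizer (τ.range : Set Γ)) : ∃ M, Act τ g M := by
  have h1 : ∀ a : V, ∃ b : V, g * τ (Multiplicative.ofAdd a) * g⁻¹ = τ (Multiplicative.ofAdd b) := by
    intro a
    obtain ⟨b, hb⟩ := ((Subgroup.mem_normalizer_iff.1 hg) (τ (Multiplicative.ofAdd a))).1 ⟨_, rfl⟩
    exact ⟨b.toAdd, hb.symm⟩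
  choose f hf using h1
  let F : V →+ V := AddMonoidHom.mk' f fun a b => by
    apply Multiplicative.ofAdd.injective
    apply hτ
    rw [← hf, τ_add, τ_add, ← hf, ← hf]; group
  refine ⟨LinearMap.toMatrix' (F.toZModLinearMap 5), fun a => ?_⟩
  rw [LinearMap.toMatrix'_mulVec]
  exact hf a

theorem card_range (hτ : Function.Injective τ) : Nat.card τ.range = 625 := by
  rw [← Nat.card_congr (MonoidHom.ofInjective hτ).toEquiv]
  simp [Nat.card_eq_fintype_card]

end

namespace Sys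
variable {Γ : Type*} [Group Γ] (S : Sys Γ)

theorem card_T : Nat.card S.T = 625 := card_range S.inj

theorem T_comm : ∀ x ∈ S.T, ∀ y ∈ S.T, x * y = y * x := by
  rintro _ ⟨a, rfl⟩ _ ⟨b, rfl⟩
  rw [← map_mul, mul_comm, map_mul]

theorem K_le_J (i : Fin 2) (k : Fin 4) : S.K (Q i k) ≤ S.J i := le_iSup (fun k => S.K (Q i k)) k

/-- a product of reflections is realised inside any subgroup containing the `ν`'s -/
theorem exists_of_closure {s : Set M4} (X : Subgroup Γ) (hs : ∀ M ∈ s, ∃ g ∈ X, Act S.τ g M)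
    {M : M4} (hM : M ∈ Submonoid.closure s) : ∃ g ∈ X, Act S.τ g M := by
  induction hM using Submonoid.closure_induction with
  | mem x hx => exact hs x hx
  | one => exact ⟨1, X.one_mem, Act.one⟩
  | mul x y _ _ hx hy =>
    obtain ⟨g, hg, h1⟩ := hx
    obtain ⟨h, hh, h2⟩ := hy
    exact ⟨g * h, X.mul_mem hg hh, h1.mul h2⟩

theorem exists_of_G31 {M : M4} (hM : M ∈ G31) : ∃ g, Act S.τ g M := by
  obtain ⟨g, -, h⟩ := S.exists_of_closure ⊤ (by rintro _ ⟨l, rfl⟩; exact ⟨_, trivial, S.νA l⟩) hM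
  exact ⟨g, h⟩

theorem exists_of_W {i : Fin 2} {M : M4} (hM : M ∈ W i) : ∃ g ∈ S.J i, Act S.τ g M :=
  S.exists_of_closure _ (by rintro _ ⟨k, rfl⟩; exact ⟨_, S.K_le_J i k (S.νK _), S.νA _⟩) hM

/-- `pres` with the target named -/
theorem pres' (hr : CertR) {g : Γ} {M : M4} (h : Act S.τ g M) {l l' : Fin 60}
    (e : M * r l = r l' * M) : cS g (S.K l) = S.K l' := by
  obtain ⟨l'', h1, h2⟩ := S.pres g M h l
  have : r l'' = r l' := (h.isUnit S.inj).mul_right_cancel (h1.symm.trans e)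
  rw [← hr.1 this]; exact h2

end Sys

end H36.O84
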