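import Cfsg.Agent.S1065
import Cfsg.Agent.H36.O84Spec

/-! Tower O84: the order of `E8(2)`: finiteness and the 5-part. -/

set_option autoImplicit false

namespace H36.O84

theorem card_E82 : Nat.card ↥(Cfsg.Lie.chevE8.group (ZMod 2)) =
    2 ^ 120 * (2 ^ 2 - 1) * (2 ^ 8 - 1) * (2 ^ 12 - 1) * (2 ^ 14 - 1) * (2 ^ 18 - 1) *
      (2 ^ 20 - 1) * (2 ^ 24 - 1) * (2 ^ 30 - 1) :=
  Cfsg.Agent.S1065.result (F := ZMod 2) (q := 2) (ZMod.card 2)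

theorem finite_E82 : Finite ↥(Cfsg.Lie.chevE8.group (ZMod 2)) :=
  Nat.finite_of_card_ne_zero (by rw [card_E82]; norm_num)

theorem n56_E82 : ¬ 5 ^ 6 ∣ Nat.card ↥(Cfsg.Lie.chevE8.group (ZMod 2)) := by
  rw [card_E82]; norm_num

theorem n56_of_equiv {Γ : Type*} [Group Γ]
    (e : Nonempty (Γ ≃* ↥(Cfsg.Lie.chevE8.group (ZMod 2)))) : ¬ 5 ^ 6 ∣ Nat.card Γ := by
  obtain ⟨e⟩ := e
  rw [Nat.card_congr e.toEquiv]; exact n56_E82

end H36.O84
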