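import Cfsg.Agent.H36.SimBrSpec
import Cfsg.Agent.H98.CharP

/-! S3694, chapter BRIDGES: preimages under the diagonal action. -/

set_option autoImplicit false
set_option linter.unusedSectionVars false

namespace H36.SimBr

open Subgroup Cfsg H98 Matrix H0.Sim
open scoped commutatorElement

variable {n : ℕ} {F : Type} [Field F]

theorem th_coe (j : Jm n F) (s : GL (Fin n) F) :
    th j (s : Mt n F) = ((if j.a then (al j s)⁻¹ else al j s : GL (Fin n) F) : Mt n F) := by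
  obtain ⟨c, σ, a⟩ := j
  cases a
  · simp [th, al, Units.val_mul]
  · have : (al ⟨c, σ, true⟩ s)⁻¹ = c * H57.glField (Fin n) F σ (H57.glGraph (Fin n) F s)⁻¹ * c⁻¹ := by
      simp [al, mul_assoc]
    simp only [if_true, this, th, Units.val_mul, H57.glField_coe, H57.glGraph_inv_coe]
    rfl

theorem th_mul (j : Jm n F) (a b : Mt n F) :
    th j (a * b) = if j.a then th j b * th j a else th j a * th j b := by
  obtain ⟨c, σ, a⟩ := j
  cases a <;> simp [th, Matrix.map_mul, Matrix.mul_assoc]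

theorem th_inj (j : Jm n F) : Function.Injective (th j) := by
  intro a b h
  have h1 := (Units.mul_right_inj _).1 ((Units.mul_left_inj _).1 h)
  obtain ⟨c, σ, k⟩ := j
  cases k
  · exact Matrix.map_injective σ.injective h1
  · exact Matrix.map_injective σ.injective (transpose_injective h1)

theorem th_conj (j : Jm n F) (s : GL (Fin n) F) (m : Mt n F) :
    th j ((s : Mt n F) * m * ((s⁻¹ : GL (Fin n) F) : Mt n F)) =
      (al j s : GL (Fin n) F) * th j m * (((al j s)⁻¹ : GL (Fin n) F) : Mt n F) := by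
  rw [th_mul, th_mul, th_coe, th_coe, map_inv]
  cases j.a <;> simp [Matrix.mul_assoc]

theorem det_al (j : Jm n F) {s : GL (Fin n) F} (h : GeneralLinearGroup.det s = 1) :
    GeneralLinearGroup.det (al j s) = 1 := by
  have h1 : (s : Mt n F).det = 1 := congrArg Units.val h
  have h2 : (th j (s : Mt n F)).det = 1 := by
    have h3 : ((s : Mt n F).map j.σ).det = 1 := by
      have := (j.σ : F →+* F).map_det (s : Mt n F)
      rw [h1, map_one] at this
      exact this.symm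
    have h4 : (if j.a then ((s : Mt n F).map j.σ)ᵀ else (s : Mt n F).map j.σ).det = 1 := by
      cases j.a <;> simp [h3]
    rw [th, det_mul, det_mul, h4, mul_one, ← det_mul, Units.mul_inv, det_one]
  rw [th_coe] at h2
  have h5 : GeneralLinearGroup.det (if j.a then (al j s)⁻¹ else al j s) = 1 := Units.ext h2
  revert h5
  cases j.a <;> simp

theorem mem_of_th {j : Jm n F} {s : GL (Fin n) F} {E : Subgroup (GL (Fin n) F)} :
    th j (s : Mt n F) ∈ mat E ↔ al j s ∈ E := by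
  rw [th_coe]
  have : ∀ x : GL (Fin n) F, (x : Mt n F) ∈ mat E ↔ x ∈ E := fun x =>
    ⟨fun ⟨e, he, h⟩ => Units.ext h ▸ he, fun h => ⟨x, h, rfl⟩⟩
  rw [this]
  cases j.a <;> simp

theorem St.mul {s t : GL (Fin n) F} {X : Set (Mt n F)} (hs : St s X) (ht : St t X) :
    St (s * t) X := fun m hm => by
  have := hs _ (ht m hm)
  simpa [Matrix.mul_assoc] using this

variable {X : Type} [Group X] {u : Bool} {q : ℕ}

/-- The preimage in `GL` of a subgroup. -/
def lf (δ : Gam n F u q →* X) (K : Subgroup X) : Subgroup (GL (Fin n) F) :=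
  (K.comap δ).map (Gam n F u q).subtype

variable {δ : Gam n F u q →* X} {N : Subgroup X} {η : Jm n F → X}

theorem coe_mem_lf {K : Subgroup X} {c : Gam n F u q} : (c : GL (Fin n) F) ∈ lf δ K ↔ δ c ∈ K :=
  ⟨fun ⟨d, hd, e⟩ => (Subtype.ext e : d = c) ▸ hd, fun h => ⟨c, h, rfl⟩⟩

theorem lf_mono {K L : Subgroup X} (h : K ≤ L) : lf δ K ≤ lf δ L := map_mono (comap_mono h)

theorem cj_lf (c : Gam n F u q) (K : Subgroup X) :
    cj (c : GL (Fin n) F) (lf δ K) = lf δ (cj (δ c) K) := by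
  ext x
  rw [mem_cj]
  by_cases hx : x ∈ Gam n F u q
  · have : (c : GL (Fin n) F)⁻¹ * x * c = ((c⁻¹ * ⟨x, hx⟩ * c : Gam n F u q) : GL (Fin n) F) := rfl
    rw [this, coe_mem_lf]
    refine Iff.trans ?_ (coe_mem_lf (c := ⟨x, hx⟩)).symm
    rw [mem_cj, map_mul, map_mul, map_inv]
  · refine ⟨fun h => absurd ?_ hx, fun h => absurd (map_subtype_le _ h) hx⟩
    have := map_subtype_le _ h
    rwa [mul_mem_cancel_right c.2, mul_mem_cancel_left (inv_mem c.2)] at this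

theorem lf_no (K : Subgroup X) : lf δ (normalizer (K : Set X)) ≤
    normalizer (lf δ K : Set (GL (Fin n) F)) := by
  rintro _ ⟨c, hc, rfl⟩
  exact cj_eq_self_iff.1 ((cj_lf c K).trans (by rw [cj_eq_self hc]))

theorem le_of_lf {K L : Subgroup X} (hK : K ≤ δ.range) (h : lf δ K ≤ lf δ L) : K ≤ L := fun x hx => by
  obtain ⟨c, rfl⟩ := hK hx
  exact coe_mem_lf.1 (h (coe_mem_lf.2 hx))

theorem Bd.normal (b : Bd u q δ N η) : δ.range.Normal := ⟨by
  rintro _ ⟨c, rfl⟩ x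
  obtain ⟨j, hj, rfl⟩ := b.sur x
  obtain ⟨c', -, h⟩ := b.con j hj c
  exact ⟨c', h.symm⟩⟩

theorem Bd.le (b : Bd u q δ N η) : N ≤ δ.range := fun x hx => by
  obtain ⟨s, -, h⟩ := (b.inn x).1 hx
  exact ⟨s, h⟩

theorem Bd.zle (b : Bd u q δ N η) (K : Subgroup X) : Zg n F u q ≤ lf δ K := fun z hz =>
  (coe_mem_lf (c := ⟨z, hz.1⟩)).2 (((b.ker ⟨z, hz.1⟩).2 hz).symm ▸ one_mem K)

theorem Bd.iv (b : Bd u q δ N η) {H K : Subgroup X} (h : H ≤ normalizer (K : Set X)) :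
    Iv {j | Ok u q j ∧ η j ∈ H} (mat (lf δ K)) := by
  rintro j ⟨h1, h2⟩ _ ⟨_, ⟨c, hc, rfl⟩, rfl⟩
  obtain ⟨c', e1, e2⟩ := b.con j h1 c
  refine mem_of_th.2 (e1 ▸ coe_mem_lf.2 (e2 ▸ (mem_normalizer_iff.1 (h h2) _).1 hc))

theorem Bd.inn' (b : Bd u q δ N η) {H : Subgroup X} {h : GL (Fin n) F} (hh : h ∈ lf δ H) :
    (⟨h, RingEquiv.refl F, false⟩ : Jm n F) ∈ {j | Ok u q j ∧ η j ∈ H} := by
  obtain ⟨c, hc, rfl⟩ := hh
  exact ⟨⟨c.2, fun e => absurd e (by simp)⟩, (b.idt c).symm ▸ hc⟩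

theorem Bd.card_lf (b : Bd u q δ N η) (H : Subgroup X) :
    Nat.card (lf δ H) = Nat.card ↥(H ⊓ δ.range) * Nat.card (Zg n F u q) := by
  have h1 : Zg n F u q = lf δ ⊥ := le_antisymm (b.zle _) (by
    rintro _ ⟨c, hc, rfl⟩
    exact (b.ker c).1 hc)
  rw [h1, lf, lf, card_map_of_injective (Gam n F u q).subtype_injective,
    card_map_of_injective (Gam n F u q).subtype_injective, MonoidHom.comap_bot,
    ← relIndex_bot_left (H.comap δ), ← relIndex_mul_relIndex ⊥ δ.ker (H.comap δ) bot_le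
      (ker_le_comap δ H), relIndex_bot_left, relIndex_ker, map_comap_eq, mul_comm, inf_comm]

variable [Fintype F] [Finite X]

theorem Bd.sur_al (b : Bd u q δ N η) {j : Jm n F} (hj : Ok u q j) (c : Gam n F u q) :
    ∃ d : Gam n F u q, (c : GL (Fin n) F) = al j (d : GL (Fin n) F) ∧ η j * δ d * (η j)⁻¹ = δ c := by
  choose f f1 f2 using b.con j hj
  have hf : Function.Injective f := fun x y e =>
    Subtype.ext ((al j).injective (by rw [← f1, ← f1, e]))
  obtain ⟨d, rfl⟩ := Finite.surjective_of_injective hf c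
  exact ⟨d, f1 d, f2 d⟩

theorem onto {α : Type} [Finite α] {f : α → α} (hf : Function.Injective f) {W : Set α}
    (h : ∀ m ∈ W, f m ∈ W) : ∀ m ∈ W, ∃ k ∈ W, f k = m :=
  (((Set.toFinite W).injOn_iff_bijOn_of_mapsTo h).1 hf.injOn).surjOn

theorem St.inv {s : GL (Fin n) F} {W : Set (Mt n F)} (hs : St s W) : St s⁻¹ W := fun m hm => by
  obtain ⟨k, hk, rfl⟩ := onto (f := fun m : Mt n F => (s : Mt n F) * m * ((s⁻¹ : GL (Fin n) F) : Mt n F))
    (fun a b e => (Units.mul_right_inj _).1 ((Units.mul_left_inj _).1 e)) hs m hm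
  simpa [Matrix.mul_assoc] using hk

theorem Bd.mp (b : Bd u q δ N η) {G H : Subgroup X} (NG : N ≤ G) (HG : H ≤ G)
    (mx : ∀ K : Subgroup X, H ≤ K → K ≤ G → K = H ∨ K = G) (W : Set (Mt n F))
    (hW : Iv {j | Ok u q j ∧ η j ∈ H} W) (hs : ∃ s ∈ Sg n F u q, ¬ St s W) :
    ∀ s ∈ Sg n F u q, St s W → s ∈ lf δ H := by
  let Y : Subgroup (Gam n F u q) :=
    { carrier := {s | (s : GL (Fin n) F) ∈ Sg n F u q ∧ St (s : GL (Fin n) F) W}
      one_mem' := ⟨one_mem _, fun m hm => by simpa using hm⟩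
      mul_mem' := fun ha hb => ⟨mul_mem ha.1 hb.1, St.mul ha.2 hb.2⟩
      inv_mem' := fun ha => ⟨inv_mem ha.1, St.inv ha.2⟩ }
  have hn : H ≤ normalizer (Y.map δ : Set X) := fun h hh => by
    obtain ⟨j, hj, rfl⟩ := b.sur h
    refine mem_normalizer_of_cj_le ?_
    rintro _ ⟨_, ⟨y, hy, rfl⟩, rfl⟩
    obtain ⟨c', e1, e2⟩ := b.con j hj y
    refine ⟨c', ⟨⟨c'.2, e1 ▸ det_al j hy.1.2⟩, fun m hm => ?_⟩, e2.symm⟩
    obtain ⟨k, hk, rfl⟩ := onto (th_inj j) (hW j ⟨hj, hh⟩) m hm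
    rw [e1, ← th_conj]
    exact hW j ⟨hj, hh⟩ _ (hy.2 k hk)
  have hY : Y.map δ ≤ N := by
    rintro _ ⟨y, hy, rfl⟩
    exact (b.inn _).2 ⟨y, hy.1, rfl⟩
  intro s h1 h2
  rcases mx (H ⊔ Y.map δ) le_sup_left (sup_le HG (hY.trans NG)) with e | e
  · exact (coe_mem_lf (c := ⟨s, h1.1⟩)).2 (e.le (mem_sup_right ⟨⟨s, h1.1⟩, ⟨h1, h2⟩, rfl⟩))
  obtain ⟨t, t1, t2⟩ := hs
  obtain ⟨h, hh, _, ⟨y, hy, rfl⟩, e'⟩ := (mem_sup_left_norm hn).1
    (e.ge (NG ((b.inn _).2 ⟨⟨t, t1.1⟩, t1, rfl⟩)))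
  have h3 : t * (y : GL (Fin n) F)⁻¹ ∈ lf δ H := (coe_mem_lf (c := ⟨t, t1.1⟩ * y⁻¹)).2 (by
    rw [map_mul, map_inv, e', mul_inv_cancel_right]; exact hh)
  have h4 : St (t * (y : GL (Fin n) F)⁻¹) W := fun m hm => by
    simpa [th] using hW _ (b.inn' h3) m hm
  have := St.mul h4 hy.2
  rw [inv_mul_cancel_right] at this
  exact absurd this t2

end H36.SimBr
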