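import Cfsg.Agent.H36.SimBrA
import Cfsg.Agent.H98.Sylow

/-! S3694, chapter BRIDGES: the generic bridge. -/

set_option autoImplicit false
set_option linter.unusedSectionVars false

namespace H36.SimBr

open Subgroup Cfsg H98 Matrix H0.Sim
open scoped commutatorElement

section grp

variable {X : Type} [Group X] [Finite X] {p : ℕ} [Fact p.Prime] {H A : Subgroup X}

theorem min_el (AQ : A ≤ pCoreOf p H) (nA : H ≤ normalizer (A : Set X)) (ne : A ≠ ⊥)
    (mn : ∀ A₁ : Subgroup X, A₁ ≤ A → H ≤ normalizer (A₁ : Set X) → A₁ = ⊥ ∨ A₁ = A) :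
    A ≤ centralizer (pCoreOf p H : Set X) ∧ ∀ a ∈ A, a ^ p = 1 := by
  have hA : IsPGroup p A := (isPGroup_pCoreOf H).to_le AQ
  have h1 : A ≤ centralizer (pCoreOf p H : Set X) := by
    have := (mn (A ⊓ centralizer (pCoreOf p H : Set X)) inf_le_left fun h hh =>
      cj_eq_self_iff.1 (by rw [cj_inf, cj_centralizer, cj_eq_self (nA hh),
        cj_eq_self (self_le_normalizer_pCoreOf H hh)])).resolve_left
      (inf_centralizer_ne_bot hA (isPGroup_pCoreOf H) ((pCoreOf_le H).trans nA) ne)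
    exact this.ge.trans inf_le_right
  have hc : ∀ a ∈ A, ∀ b ∈ A, Commute a b := fun a ha b hb => h1 hb a (AQ ha)
  let B : Subgroup X :=
    { carrier := {a | a ∈ A ∧ a ^ p = 1}
      one_mem' := ⟨one_mem _, one_pow _⟩
      mul_mem' := fun {a b} ha hb => ⟨mul_mem ha.1 hb.1, by
        rw [(hc a ha.1 b hb.1).mul_pow, ha.2, hb.2, mul_one]⟩
      inv_mem' := fun ha => ⟨inv_mem ha.1, by rw [inv_pow, ha.2, _root_.inv_one]⟩ }
  refine ⟨h1, fun a ha => ?_⟩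
  rcases mn B (fun _ h => h.1) (fun h hh => mem_normalizer_of_cj_le (by
    rintro _ ⟨a, ha, rfl⟩
    exact ⟨(mem_normalizer_iff.1 (nA hh) a).1 ha.1, by rw [← map_pow, ha.2, map_one]⟩)) with e | e
  · have : Nontrivial A := (nontrivial_iff_ne_bot A).2 ne
    obtain ⟨k, hk, hc⟩ := hA.nontrivial_iff_card.1 this
    obtain ⟨x, hx⟩ := exists_prime_orderOf_dvd_card' (G := A) p (hc ▸ dvd_pow_self p hk.ne')
    have h2 : (x : X) ∈ B := ⟨x.2, by rw [← coe_pow, ← hx, pow_orderOf_eq_one, coe_one]⟩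
    rw [e, mem_bot, OneMemClass.coe_eq_one] at h2
    rw [h2, orderOf_one] at hx
    exact absurd hx.symm (Fact.out : p.Prime).ne_one
  · exact (e.ge ha).2

theorem no_inf {K D : Subgroup X} [D.Normal] (h : H ≤ normalizer (K : Set X)) :
    H ≤ normalizer ((K ⊓ D : Subgroup X) : Set X) := fun x hx =>
  cj_eq_self_iff.1 (by rw [cj_inf, cj_eq_self (h hx), cj_eq_self_of_normal])

end grp

variable {n : ℕ} {F : Type} [Field F] [Fintype F] {X : Type} [Group X] [Finite X] {u : Bool} {q : ℕ}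
  {δ : Gam n F u q →* X} {N : Subgroup X} {η : Jm n F → X} {G H A A' : Subgroup X} {p : ℕ} {g : X}

theorem Bd.cf0 (b : Bd u q δ N η) (P : Par n F u q) (h : Am N G H A p g) (AD : A' ≤ δ.range)
    (AQ : A' ≤ pCoreOf p H) (nA : H ≤ normalizer (A' : Set X)) (ne : A' ≠ ⊥)
    (mn : ∀ A₁ : Subgroup X, A₁ ≤ A' → H ≤ normalizer (A₁ : Set X) → A₁ = ⊥ ∨ A₁ = A') :
    Cf0 u q p {j | Ok u q j ∧ η j ∈ H} (lf δ H) (lf δ (pCoreOf p H)) (lf δ A') := by
  have := Fact.mk h.pp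
  have := b.normal
  obtain ⟨k1, k2⟩ := min_el AQ nA ne mn
  refine ⟨P, h.pp, fun j hj => hj.1, fun x hx => b.inn' hx, b.zle _, lf_mono AQ,
    lf_mono (pCoreOf_le H), map_subtype_le _, b.iv le_normalizer,
    b.iv (self_le_normalizer_pCoreOf H), b.iv nA, b.mp h.NG h.HG.le h.mx, fun e => ne ?_,
    fun E e1 e2 e3 => ?_, ?_, ?_, ?_, ?_⟩
  · refine eq_bot_iff.2 fun x hx => ?_
    obtain ⟨c, rfl⟩ := AD hx
    exact (b.ker c).2 (e (coe_mem_lf.2 hx))
  · have l1 : (E.subgroupOf (Gam n F u q)).map δ ≤ A' := by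
      rintro _ ⟨c, hc, rfl⟩
      exact coe_mem_lf.1 (e2 hc)
    refine (mn _ l1 fun x hx => ?_).imp (fun e => le_antisymm (fun x hx => ?_) e1)
      fun e => le_antisymm e2 ?_
    · obtain ⟨j, hj, rfl⟩ := b.sur x
      refine mem_normalizer_of_cj_le ?_
      rintro _ ⟨_, ⟨y, hy, rfl⟩, rfl⟩
      obtain ⟨c', e4, e5⟩ := b.con j hj y
      exact ⟨c', mem_subgroupOf.2 (e4 ▸ mem_of_th.1 (e3 j ⟨hj, hx⟩ _ ⟨y, hy, rfl⟩)), e5.symm⟩
    · obtain ⟨c, -, rfl⟩ := e2 hx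
      exact (b.ker c).1 (e.le ⟨c, hx, rfl⟩)
    · rintro _ ⟨c, hc, rfl⟩
      obtain ⟨d, hd, e4⟩ := e.ge hc
      have := mul_mem (mem_subgroupOf.1 hd) (e1 ((b.ker (d⁻¹ * c)).1 (by
        rw [map_mul, map_inv, e4, inv_mul_cancel])))
      simpa using this
  · rintro _ ⟨c, hc, rfl⟩
    obtain ⟨k, hk⟩ := isPGroup_iff_forall.1 (isPGroup_pCoreOf (p := p) H) _ hc
    exact ⟨k, (b.ker (c ^ p ^ k)).1 (by rw [map_pow, hk])⟩
  · rintro _ ⟨c, hc, rfl⟩
    exact (b.ker (c ^ p)).1 (by rw [map_pow, k2 _ hc])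
  · rintro _ ⟨c, hc, rfl⟩ _ ⟨d, hd, rfl⟩
    exact (b.ker ⁅c, d⁆).1 (by
      rw [map_commutatorElement, commutatorElement_eq_one_iff_mul_comm]; exact (k1 hc _ hd).symm)
  · rintro _ ⟨c, hc, rfl⟩ hy
    have c1 : CharP p H := fun x hx => h.ch x hx.1 hx.2
    have n1 : H ≤ normalizer ((H ⊓ δ.range : Subgroup X) : Set X) := no_inf le_normalizer
    have c2 := c1.normal inf_le_left n1
    refine coe_mem_lf.2 (pCoreOf_le_pCoreOf_of_normal inf_le_left n1 (c2 ⟨⟨hc, c, rfl⟩, fun y hy' => ?_⟩))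
    obtain ⟨d, rfl⟩ := (pCoreOf_le _ hy').2
    have := (b.ker ⁅c, d⁆).2 (hy _ (coe_mem_lf.2 (pCoreOf_le_pCoreOf_of_normal inf_le_left n1 hy')))
    rw [map_commutatorElement, commutatorElement_eq_one_iff_mul_comm] at this
    exact this.symm

theorem Bd.small (b : Bd u q δ N η) (s : Small u q (lf δ H)) : Nat.card H ≤ 31104 := by
  obtain ⟨r, f, h1, h2, h3⟩ := b.idx
  have h4 := s r f h1 h2
  rw [b.card_lf, mul_right_comm] at h4
  have h5 := Nat.le_of_mul_le_mul_right h4 Nat.card_pos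
  have h6 : δ.range.relIndex H ≤ δ.range.index := by
    rw [← relIndex_top_right]
    exact relIndex_le_of_le_right le_top index_ne_zero_of_finite
  have h7 := relIndex_mul_relIndex ⊥ (H ⊓ δ.range) H bot_le inf_le_left
  rw [relIndex_bot_left, relIndex_bot_left, inf_relIndex_left] at h7
  rw [← h7]
  exact (Nat.mul_le_mul_left _ (h6.trans h3)).trans h5

theorem gen : Gen := by
  intro n F _ _ u q P X _ _ δ N η b G H A p g h
  have := Fact.mk h.pp
  have := b.normal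
  refine ⟨fun AD => ?_, fun AD hp => ?_⟩
  · obtain ⟨s, s1, rfl⟩ := (b.inn g).1 h.gN
    refine ⟨_, _, _, _, s, ⟨b.cf0 P h AD h.AQ h.nA h.ne h.mn, s1, ?_, ?_, ?_, ?_⟩, b.small⟩
    · rw [cj_lf]; exact lf_mono h.BQ
    · rw [cj_lf]
      exact fun e => h.Bne (le_antisymm (le_of_lf (cj_le_of_le_of_mem AD ⟨s, rfl⟩) e.le)
        (le_of_lf AD e.ge))
    · rintro _ ⟨c, hc, rfl⟩
      rw [cj_lf]
      exact (cj_lf c _).le.trans ((lf_mono (h.nb _ hc)).trans (lf_no _))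
    · rw [cj_lf]
      rintro j ⟨j1, j2⟩ _ ⟨c, hc, rfl⟩ _ ⟨_, ⟨_, ⟨e, he, rfl⟩, rfl⟩, rfl⟩
      obtain ⟨d, d1, d2⟩ := b.sur_al j1 c
      have h1 : δ d ∈ normalizer (cj (δ s) A : Set X) := h.nb _ (inv_mem j2) (mem_cj.2 (by
        rw [inv_inv, d2]; exact hc))
      refine ⟨_, ⟨_, coe_mem_lf.2 (show δ (d * e * d⁻¹) ∈ _ by
        rw [map_mul, map_mul, map_inv]; exact (mem_normalizer_iff.1 h1 _).1 he), rfl⟩, ?_⟩
      rw [coe_subtype, d1, ← th_conj]
      rfl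
  · have h1 : A ⊓ δ.range = ⊥ :=
      (h.mn _ inf_le_left (no_inf h.nA)).resolve_right fun e => AD (e.ge.trans inf_le_right)
    have hA : IsPGroup p A := (isPGroup_pCoreOf H).to_le h.AQ
    have AG : A ≤ G := (h.AQ.trans (pCoreOf_le H)).trans h.HG.le
    have h2 : G ⊓ normalizer (A : Set X) = H :=
      (h.mx _ (le_inf h.HG.le h.nA) inf_le_left).resolve_right fun e =>
        h.Bne (cj_eq_self (e.ge (h.NG h.gN)).2)
    obtain ⟨T, hT, AT⟩ := exists_isSyl_le hA AG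
    have hS := hT.inf_of_le_normalizer h.NG (hT.le.trans h.nN)
    have h3 := inf_centralizer_ne_bot hS.isPGroup hA (fun a ha => cj_eq_self_iff.1 (by
      rw [cj_inf, cj_eq_self_of_mem (AT ha), cj_eq_self (h.nN (AG ha))]))
      fun e => hS.eq_bot_iff.1 e (hp ▸ b.chr)
    have h4 : H ⊓ δ.range ≠ ⊥ := fun e => h3 (eq_bot_iff.2 fun x hx => e.le
      ⟨h2.le ⟨h.NG hx.1.2, centralizer_le_normalizer _ hx.2⟩, b.le hx.1.2⟩)
    have c1 : CharP p H := fun x hx => h.ch x hx.1 hx.2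
    have n1 : H ≤ normalizer ((H ⊓ δ.range : Subgroup X) : Set X) := no_inf le_normalizer
    have h5 := (c1.normal inf_le_left n1).pCoreOf_ne_bot h4
    obtain ⟨B, ⟨b1, b2, b3⟩, hm⟩ := Set.Finite.exists_minimal (s := {B : Subgroup X |
      B ≤ pCoreOf p (H ⊓ δ.range) ∧ H ≤ normalizer (B : Set X) ∧ B ≠ ⊥}) (Set.toFinite _)
      ⟨_, le_rfl, le_normalizer_pCoreOf n1, h5⟩
    obtain ⟨⟨x, hx⟩, x1⟩ := ne_bot_iff_exists_ne_one.1 h.ne
    obtain ⟨j, hj, rfl⟩ := b.sur x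
    refine ⟨_, _, _, _, j, b.cf0 P h ((b1.trans (pCoreOf_le _)).trans inf_le_right)
      (b1.trans (pCoreOf_le_pCoreOf_of_normal inf_le_left n1)) b2 b3 (fun A₁ a1 a2 => ?_),
      hj, ?_, ?_⟩
    · by_cases a3 : A₁ = ⊥
      · exact .inl a3
      · exact .inr (le_antisymm a1 (hm ⟨a1.trans b1, a2, a3⟩ a1))
    · by_contra hn
      obtain ⟨c, σ, a⟩ := j
      obtain ⟨rfl, h6⟩ : σ = RingEquiv.refl F ∧ ¬ a = true := by simpa using hn
      obtain rfl : a = false := by simpa using h6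
      exact x1 (Subtype.ext (h1.le ⟨hx, ⟨c, hj.1⟩, (b.idt ⟨c, hj.1⟩).symm⟩))
    · rintro _ ⟨⟨c, hc, rfl⟩, -⟩
      obtain ⟨d, d1, d2⟩ := b.con j hj c
      have h6 : δ (d * c⁻¹) = 1 := h1.le ⟨by
        rw [map_mul, map_inv, ← d2]
        have := mul_mem hx ((mem_normalizer_iff.1 (h.nA hc) _).1 (inv_mem hx))
        simpa [mul_assoc] using this, _, rfl⟩
      have h7 := (b.ker _).1 h6
      rw [coe_subtype, th_coe, ← d1]
      cases j.a
      · exact ⟨_, h7, by simp⟩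
      · refine ⟨_, inv_mem h7, ?_⟩
        rw [if_pos rfl, if_pos rfl, ← mem_center_iff.1 (inv_mem h7).2]
        simp

end H36.SimBr
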