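import Cfsg.Agent.H36.SimBrB
import Cfsg.Agent.H67.SimBrL
import Cfsg.Agent.H0.SimSpec2

/-! S3694, chapter BRIDGES: the linear bridges. -/

set_option autoImplicit false
set_option linter.unusedSectionVars false

namespace H36.SimBr

open Subgroup Cfsg _root_.H98 Matrix H0.Sim H67.SimBrL

variable {n : ℕ} {F : Type} [Field F] [Fintype F] {X : Type} [Group X] [Finite X] {u : Bool} {q : ℕ}
  {δ : Gam n F u q →* X} {N : Subgroup X} {η : Jm n F → X} {G H A : Subgroup X} {p : ℕ} {g : X}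

theorem Bd.cf (b : Bd u q δ N η) (P : Par n F u q) (h : Am N G H A p g) (AD : A ≤ δ.range) :
    ∃ g₀, Cf u q p {j | Ok u q j ∧ η j ∈ H} (lf δ H) (lf δ (pCoreOf p H)) (lf δ A) g₀ := by
  obtain ⟨s, s1, rfl⟩ := (b.inn g).1 h.gN
  refine ⟨s, b.cf0 P h AD h.AQ h.nA h.ne h.mn, s1, ?_, ?_, ?_, ?_⟩
  · rw [cj_lf]; exact lf_mono h.BQ
  · rw [cj_lf]
    exact fun e => h.Bne (le_antisymm (le_of_lf (cj_le_of_le_of_mem AD ⟨s, rfl⟩) e.le)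
      (le_of_lf AD e.ge))
  · rintro _ ⟨c, hc, rfl⟩
    rw [cj_lf]
    exact (cj_lf c _).le.trans ((lf_mono (h.nb _ hc)).trans (lf_no _))
  · rw [cj_lf]
    rintro j ⟨j1, j2⟩ _ ⟨c, hc, rfl⟩ _ ⟨_, ⟨_, ⟨e, he, rfl⟩, rfl⟩, rfl⟩
    obtain ⟨d, d1, d2⟩ := b.sur_al j1 c
    have h1 : δ d ∈ normalizer (cj (δ s) A : Set X) := h.nb _ (inv_mem j2) (mem_cj.2 (by
      rw [inv_inv, d2]; exact hc))
    refine ⟨_, ⟨_, coe_mem_lf.2 (show δ (d * e * d⁻¹) ∈ _ by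
      rw [map_mul, map_mul, map_inv]; exact (mem_normalizer_iff.1 h1 _).1 he), rfl⟩, ?_⟩
    rw [coe_subtype, d1, ← th_conj]
    rfl

theorem bdL (P : Par n F false q) : Bd false q (del n F q) (Inn (PL n F)) eta := by
  refine ⟨fun c => ?_, fun x => ?_, fun x => ?_, fun j _ c => ?_, fun c => ?_, ?_, chr P.two⟩
  · change (c : GL (Fin n) F) ∈ (H57.pslDiag (Fin n) F).ker ↔ _
    rw [H57.ker_pslDiag]
    exact ⟨fun h => ⟨c.2, h⟩, fun h => h.2⟩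
  · rw [H57.inn_psl_eq]
    exact ⟨fun ⟨s, hs, e⟩ => ⟨⟨s, mem_gam q s⟩, ⟨mem_gam q s, hs⟩, e⟩,
      fun ⟨s, hs, e⟩ => ⟨s, hs.2, e⟩⟩
  · obtain ⟨g, σ, h | ⟨h3, h⟩⟩ := H57.psl_aut x
    · exact ⟨⟨g, σ, false⟩, ⟨mem_gam q g, fun h => absurd h Bool.false_ne_true⟩, by
        rw [h]; exact mul_one _⟩
    · exact ⟨⟨g, σ, true⟩, ⟨mem_gam q g, fun _ => ⟨rfl, h3⟩⟩, h.symm⟩
  · exact ⟨⟨al j c, mem_gam q _⟩, rfl, eta_con j c⟩
  · change H57.pslDiag (Fin n) F c * H57.pslField (Fin n) F 1 * 1 = H57.pslDiag (Fin n) F c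
    rw [map_one, mul_one, mul_one]
  · obtain ⟨r, f, hr, hF, h⟩ := idx (F := F) P.two
    exact ⟨r, f, hr, P.card.symm.trans hF, by rw [del_range]; exact h⟩

theorem jobBrL2 : JobBrL2 := by
  intro n F _ _ q P G H A p g h AD
  have b := bdL P
  obtain ⟨g₀, c⟩ := b.cf P h (by rwa [del_range, ← H57.inndiagPSL_eq_range])
  refine ⟨_, _, _, _, g₀, c, ?_, b.small⟩
  rintro j ⟨j1, j2⟩ _ ⟨c, hc, rfl⟩
  refine ⟨⟨mem_gam q _, j1.2⟩, ?_⟩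
  have : eta ⟨(c : GL (Fin n) F) * j.c, j.σ, j.a⟩ = del n F q c * eta j := by
    simp only [eta, map_mul, mul_assoc]
    rfl
  exact this ▸ mul_mem hc j2

theorem jobBrL0 : JobBrL0 := fun n F _ _ q P G H A p g h => by
  obtain ⟨δ, η, b, e⟩ := instL n F q P
  exact e ▸ (gen n F _ q P _ δ _ η b G H A p g h).2

theorem jobBrU (v : InstU) : JobBrU ∧ JobBrU0 := (br_of instL v gen).2.2

end H36.SimBr
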