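import Cfsg.Agent.H36.SimBrC
import Cfsg.Agent.H6.SimBrU

/-! S3694, chapter BRIDGES: the unitary bridges. -/

set_option autoImplicit false

namespace H36.SimBr

open H0.Sim

theorem jobBrU1 : JobBrU := (jobBrU H6.SimBrU.instU).1

theorem jobBrU0 : JobBrU0 := (jobBrU H6.SimBrU.instU).2

end H36.SimBr
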