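import Cfsg.Agent.H0.SimSpec
import Cfsg.Agent.H59.AutMat
import Cfsg.Agent.H57.PslAutCard

/-! # S3694 (tower SIM), chapter BRIDGES: the interface between `Aut T` and the matrix groups. -/

set_option autoImplicit false

namespace H36.SimBr

open Subgroup Cfsg H98 Matrix H0.Sim

variable {n : ℕ} {F : Type} [Field F]

/-- The automorphism of `GL` attached to `j`. -/
def al (j : Jm n F) : MulAut (GL (Fin n) F) :=
  MulAut.conj j.c * H57.glField (Fin n) F j.σ * (if j.a then H57.glGraph (Fin n) F else 1)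

/-- `δ` is the diagonal action, `N` the image of `S`, and `η j` the automorphism induced by `j`. -/
structure Bd {X : Type} [Group X] (u : Bool) (q : ℕ) (δ : Gam n F u q →* X) (N : Subgroup X)
    (η : Jm n F → X) : Prop where
  ker : ∀ c : Gam n F u q, δ c = 1 ↔ (c : GL (Fin n) F) ∈ Zg n F u q
  inn : ∀ x : X, x ∈ N ↔ ∃ s : Gam n F u q, (s : GL (Fin n) F) ∈ Sg n F u q ∧ δ s = x
  sur : ∀ x : X, ∃ j, Ok u q j ∧ η j = x
  con : ∀ j, Ok u q j → ∀ c : Gam n F u q, ∃ c' : Gam n F u q,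
    (c' : GL (Fin n) F) = al j (c : GL (Fin n) F) ∧ η j * δ c * (η j)⁻¹ = δ c'
  idt : ∀ c : Gam n F u q, η ⟨c, RingEquiv.refl F, false⟩ = δ c
  idx : ∃ r f : ℕ, r.Prime ∧ q = r ^ f ∧ δ.range.index ≤ 2 * f
  chr : ringChar F ∣ Nat.card N

def InstL : Prop := ∀ (n : ℕ) (F : Type) [Field F] [Fintype F] (q : ℕ), Par n F false q →
  ∃ (δ : Gam n F false q →* MulAut (PL n F)) (η : Jm n F → MulAut (PL n F)),
    Bd false q δ (Inn (PL n F)) η ∧ δ.range = inndiagPSL n F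

def InstU : Prop := ∀ (n : ℕ) (F : Type) [Field F] [Fintype F] (q : ℕ), Par n F true q →
  ∃ (δ : Gam n F true q →* MulAut (PSU n F q)) (η : Jm n F → MulAut (PSU n F q)),
    Bd true q δ (Inn (PSU n F q)) η ∧ δ.range = inndiagPSU n F q

def Gen : Prop := ∀ (n : ℕ) (F : Type) [Field F] [Fintype F] (u : Bool) (q : ℕ), Par n F u q →
  ∀ (X : Type) [Group X] [Finite X] (δ : Gam n F u q →* X) (N : Subgroup X) (η : Jm n F → X),
  Bd u q δ N η → ∀ (G H A : Subgroup X) (p : ℕ) (g : X), Am N G H A p g →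
  (A ≤ δ.range → ∃ (Θ : Set (Jm n F)) (H₀ Q E : Subgroup (GL (Fin n) F)) (g₀ : GL (Fin n) F),
    Cf u q p Θ H₀ Q E g₀ ∧ (Small u q H₀ → Nat.card H ≤ 31104)) ∧
  (¬ A ≤ δ.range → p = ringChar F →
    ∃ (Θ : Set (Jm n F)) (H₀ Q E : Subgroup (GL (Fin n) F)) (j : Jm n F),
      Cf0 u q p Θ H₀ Q E ∧ Out u q H₀ j)

theorem br_of (l : InstL) (v : InstU) (k : Gen) : JobBrL ∧ JobBrL0 ∧ JobBrU ∧ JobBrU0 := by
  refine ⟨fun n F _ _ q P G H A p g h => ?_, fun n F _ _ q P G H A p g h => ?_,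
    fun n F _ _ q P G H A p g h => ?_, fun n F _ _ q P G H A p g h => ?_⟩
  · obtain ⟨δ, η, b, e⟩ := l n F q P
    exact e ▸ (k n F _ q P _ δ _ η b G H A p g h).1
  · obtain ⟨δ, η, b, e⟩ := l n F q P
    exact e ▸ (k n F _ q P _ δ _ η b G H A p g h).2
  · obtain ⟨δ, η, b, e⟩ := v n F q P
    exact e ▸ (k n F _ q P _ δ _ η b G H A p g h).1
  · obtain ⟨δ, η, b, e⟩ := v n F q P
    exact e ▸ (k n F _ q P _ δ _ η b G H A p g h).2

end H36.SimBr
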