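/- Slot X3-Cd of the tower for the principal `3`-block with extraspecial defect group. -/
import Cfsg.Agent.H34.X3Spec

namespace H36.X3

open Subgroup Cfsg H28 H35 H41 H34.X3
open scoped ComplexConjugate

universe u

theorem exists_twist {H : Type*} [Group H] [Finite H] {z : H} (hz : orderOf z = 3) :
    ∃ k : ℕ, k.Coprime (Nat.card H) ∧ (∀ x : H, (x ^ k) ^ k = x) ∧
      (∀ y : H, ¬ 3 ∣ orderOf y → y ^ k = y) ∧ z ^ k = z * z := by
  obtain ⟨a, m, hm, e⟩ := Nat.exists_eq_pow_mul_and_not_dvd (Nat.card_pos (α := H)).ne' 3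
    (by norm_num)
  have c3 : Nat.Coprime 3 m := (Nat.Prime.coprime_iff_not_dvd Nat.prime_three).2 hm
  have co : Nat.Coprime (3 ^ a) m := c3.pow_left a
  obtain ⟨b, rfl⟩ : ∃ b, a = b + 1 := by
    rcases a with _ | b
    · exact absurd (by simpa [hz, e] using orderOf_dvd_natCard z) hm
    · exact ⟨b, rfl⟩
  obtain ⟨k, h1, h2⟩ := Nat.chineseRemainder co (3 ^ (b + 1) - 1) 1
  have hpos : 0 < 3 ^ (b + 1) := by positivity
  have h3 : k * k ≡ 1 [MOD Nat.card H] := by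
    rw [e, ← Nat.modEq_and_modEq_iff_modEq_mul co]
    refine ⟨(h1.mul h1).trans ?_, by simpa using h2.mul h2⟩
    obtain ⟨n, hn⟩ : ∃ n, 3 ^ (b + 1) = n + 1 := ⟨3 ^ (b + 1) - 1, by omega⟩
    rw [hn, Nat.add_sub_cancel]
    have : n * n + (n + 1) = 1 + n * (n + 1) := by ring
    exact ((Nat.add_modEq_right (a := n * n)).symm.trans (by rw [this])).trans
      (Nat.add_mul_modulus_modEq_iff.2 rfl)
  refine ⟨k, Nat.coprime_of_mul_modEq_one k h3, fun x => ?_, fun y hy => ?_, ?_⟩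
  · rw [← pow_mul]
    nth_rw 2 [← pow_one x]
    exact pow_eq_pow_iff_modEq.2 (h3.of_dvd (orderOf_dvd_natCard x))
  · nth_rw 2 [← pow_one y]
    refine pow_eq_pow_iff_modEq.2 (h2.of_dvd ?_)
    exact (((Nat.Prime.coprime_iff_not_dvd Nat.prime_three).2 hy).symm.pow_right
      (b + 1)).dvd_of_dvd_mul_left (e ▸ orderOf_dvd_natCard y)
  · rw [← sq]
    refine pow_eq_pow_iff_modEq.2 ?_
    rw [hz]
    refine (h1.of_dvd (dvd_pow_self 3 (by omega))).trans ?_
    rw [pow_succ]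
    have : 0 < 3 ^ b := by positivity
    unfold Nat.ModEq
    omega

theorem jobCd : JobCd.{u} := by
  intro H Q _ _ _ _ z π M _ ω hM h hω
  obtain ⟨w1, w3, -⟩ := om_norm hω
  constructor
  · obtain ⟨k, hk, hkk, hreg, hz⟩ := exists_twist h.ord
    let τ : IrrCharacter H → IrrCharacter H := fun ψ =>
      ⟨fun g => ψ.1 (g ^ k), H29.Cfsg.IsIrrCharacter.comp_pow ψ.2 hk⟩
    have t1 : ∀ ψ, τ (τ ψ) = ψ := fun ψ => Subtype.ext (funext fun g => congrArg ψ.1 (hkk g))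
    have t2 : ∀ ψ y, ¬ 3 ∣ orderOf y → (τ ψ).1 y = ψ.1 y := fun ψ y hy => congrArg ψ.1 (hreg y hy)
    have t3 : ∀ ψ ∈ principalBlock M H, τ ψ ∈ principalBlock M H := fun ψ hψ => by
      by_contra hn
      have e := ((inB_irr hψ).pReg hM H34.isPBlock_principalBlock).2 _ hn
      have : classInner (pRegularPart 3 ψ.1) (pRegularPart 3 ψ.1) = 0 := by
        rw [← e, classInner_def, classInner_def]
        congr 1
        refine Finset.sum_congr rfl fun g _ => ?_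
        rw [pReg_apply]
        split_ifs with hg
        · simp
        · rw [t2 ψ g hg]
      exact pReg_ne_zero Nat.prime_three ψ.2.apply_one_ne_zero (classInner_self_eq_zero.1 this)
    have t4 : ∀ (ζ ξ : ℂ), ζ ^ 2 = ξ → ∀ ψ ∈ Iz M z ζ, τ ψ ∈ Iz M z ξ := fun ζ ξ e ψ hψ =>
      ⟨t3 ψ hψ.1, fun x => by
        change ψ.1 ((z * x) ^ k) = ξ * ψ.1 (x ^ k)
        rw [Commute.mul_pow (h.comm x), hz, mul_assoc, hψ.2, hψ.2, ← e]; ring⟩
    exact ⟨⟨fun j => ⟨τ j.1, t4 _ _ rfl _ j.2⟩,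
      fun j => ⟨τ j.1, t4 _ _ (by linear_combination ω * w3) _ j.2⟩,
      fun j => Subtype.ext (t1 _), fun j => Subtype.ext (t1 _)⟩, fun j y hy => t2 _ y hy⟩
  have ev : ∀ {ζ ξ : ℂ} {ψ : IrrCharacter H}, Ev z ζ ψ.1 → Ev z ξ ψ.1 → ζ = ξ :=
    fun {ζ ξ ψ} a b => mul_right_cancel₀ ψ.2.apply_one_ne_zero ((a 1).symm.trans (b 1))
  have e1 : ∀ χ : IrrCharacter Q, Ev z 1 (infl h.surj χ).1 := fun χ x => by
    rw [infl_apply, infl_apply, map_mul, h.map, one_mul, one_mul]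
  have w2 : ω ^ 2 ≠ 1 := fun e => w1 (by linear_combination w3 - ω * e)
  have w0 : ω ≠ ω ^ 2 := fun e => w1 (by linear_combination (1 - ω) * w3 - ω ^ 2 * e)
  have hb : principalBlock M H =
      (infl h.surj '' principalBlock M Q ∪ Iz M z ω) ∪ Iz M z (ω ^ 2) := by
    ext ψ
    refine ⟨fun hψ => ?_, ?_⟩
    · rcases h.tri hM hω hψ with k | k | k
      exacts [.inl (.inl k), .inl (.inr k), .inr k]
    · rintro ((⟨χ, hχ, rfl⟩ | k) | k)
      · rw [← h.pcq.qb_principalBlock hM] at hχ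
        exact hχ
      exacts [k.1, k.1]
  rw [hb]
  simp only [Nat.card_coe_set_eq]
  rw [Set.ncard_union_eq, Set.ncard_union_eq, Set.ncard_image_of_injective _ (infl_injective _)]
  · rw [Set.disjoint_left]
    rintro _ ⟨χ, -, rfl⟩ k
    exact w1 (ev k.2 (e1 χ))
  · rw [Set.disjoint_left]
    rintro _ (⟨χ, -, rfl⟩ | k') k
    exacts [w2 (ev k.2 (e1 χ)), w0 (ev k'.2 k.2)]

end H36.X3
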