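/- Slot X3-E2 of the tower for the principal `3`-block with extraspecial defect group. -/
import Cfsg.Agent.H34.X3Lat

namespace H36.X3

open Finset Matrix H34.X3

universe u

section
variable {ι : Type*} [Fintype ι]

theorem eq_of_one {u v : ι → ℤ} (hu : u ⬝ᵥ u = 1) (hv : v ⬝ᵥ v = 1) (h : u ⬝ᵥ v = 1) : v = u := by
  rcases unit_cases hu hv with k | k | k
  · omega
  · exact k
  · rw [k, dotProduct_neg, hu] at h; omega

theorem eq_of_neg {u v : ι → ℤ} (hu : u ⬝ᵥ u = 1) (hv : v ⬝ᵥ v = 1) (h : u ⬝ᵥ v = -1) :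
    v = -u := by
  rcases unit_cases hu hv with k | k | k
  · omega
  · rw [k, hu] at h; omega
  · exact k

/-- Counting in a family split in two. -/
theorem count2 {κ κ' : Type} [Fintype κ] [Fintype κ'] {u : κ → ι → ℤ} {v : κ' → ι → ℤ}
    {d : ι → ℤ} (hu : On u) (hv : On v) (huv : ∀ i j, u i ⬝ᵥ v j = 0)
    (h : ∀ i, (∀ j, u j i = 0) → (∀ j, v j i = 0) → False)
    (h1 : ∀ j, ¬ 3 ∣ u j ⬝ᵥ d) (h2 : ∀ j, 3 ∣ v j ⬝ᵥ d) :
    Fintype.card ι = Fintype.card κ + Fintype.card κ' ∧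
      Nat.card {i // ¬ 3 ∣ d i} = Fintype.card κ := by
  have hc := (hu.elim hv huv).count (fun i => by
    by_contra hn
    push Not at hn
    exact h i (fun j => hn (.inl j)) (fun j => hn (.inr j))) d
  refine ⟨by rw [hc.1, Fintype.card_sum], ?_⟩
  rw [hc.2, ← Nat.card_eq_fintype_card]
  refine (Nat.card_congr (Equiv.ofBijective
    (fun j : κ => (⟨.inl j, h1 j⟩ : {j // ¬ 3 ∣ Sum.elim u v j ⬝ᵥ d})) ⟨?_, ?_⟩)).symm
  · intro j k e
    exact Sum.inl_injective (congrArg Subtype.val e)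
  · rintro ⟨j | j, hj⟩
    · exact ⟨j, rfl⟩
    · exact absurd (h2 j) hj

end

section
variable {ι : Type u} [Fintype ι] {w : Fin 4 → ι → ℤ} {d : ι → ℤ} {o : ι}

theorem base (hS : JobSt.{u}) (h : W0 2 w d o) : ∃ (y : ι → ℤ) (x : Fin 4 → ι → ℤ),
    y ⬝ᵥ y = 1 ∧ On x ∧ (∀ j, x j ⬝ᵥ y = 0) ∧ (∀ j, x j ⬝ᵥ ee o = 0) ∧ y ⬝ᵥ ee o = 0 ∧
      ∀ j, w j = x j + y - ee o := by
  have ho : ∀ j, w j ⬝ᵥ ee o = -1 := fun j => by rw [dot_ee, h.at_o]
  have ho' : ∀ j, ee o ⬝ᵥ w j = -1 := fun j => by rw [dotProduct_comm, ho]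
  obtain ⟨y, x, hy, hx, hxy, hw⟩ := hS ι (Fin 4) (fun j => w j + ee o) (by simp)
    (fun j => by
      simp only [add_dotProduct, dotProduct_add, h.self, ho, ho', ee_self]; norm_num)
    (fun j k hjk => by
      simp only [add_dotProduct, dotProduct_add, h.gram j k hjk, ho, ho', ee_self]; norm_num)
  have h1 : ∀ j, ee o ⬝ᵥ x j = -(ee o ⬝ᵥ y) := fun j => by
    have := congrArg (fun v => ee o ⬝ᵥ v) (hw j)
    simp only [dotProduct_add, ho', ee_self] at this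
    omega
  have h2 := hx.const (by simp) (ee_self o) h1
  refine ⟨y, x, hy, hx, hxy, fun j => by rw [dotProduct_comm, h1, h2], ?_, fun j => ?_⟩
  · rw [dotProduct_comm]; omega
  · rw [← hw j]; abel

/-- The six members. -/
def fam (x : Fin 4 → ι → ℤ) (y z : ι → ℤ) : Fin 4 ⊕ Fin 2 → ι → ℤ := Sum.elim x ![y, z]

theorem fam_on {x : Fin 4 → ι → ℤ} {y z : ι → ℤ} (hy : y ⬝ᵥ y = 1) (hz : z ⬝ᵥ z = 1) (hx : On x)
    (hxy : ∀ j, x j ⬝ᵥ y = 0) (hxz : ∀ j, x j ⬝ᵥ z = 0) (hyz : y ⬝ᵥ z = 0) : On (fam x y z) := by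
  refine hx.elim ⟨fun i => ?_, fun i j hij => ?_⟩ fun i j => ?_
  · fin_cases i <;> simp [hy, hz]
  · fin_cases i <;> fin_cases j <;> simp [hyz, dotProduct_comm z y] at hij ⊢
  · fin_cases j <;> simp [hxy, hxz]

/-- Vectors of norm three with the prescribed products. -/
theorem types {x : Fin 4 → ι → ℤ} {y z v : ι → ℤ} (hy : y ⬝ᵥ y = 1) (hz : z ⬝ᵥ z = 1) (hx : On x)
    (hxy : ∀ j, x j ⬝ᵥ y = 0) (hxz : ∀ j, x j ⬝ᵥ z = 0) (hyz : y ⬝ᵥ z = 0) (hv : v ⬝ᵥ v = 3)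
    (hg : ∀ j, v ⬝ᵥ (x j + y - z) = g2 j) :
    v = x 1 + x 2 + x 3 ∨ ∃ (t : ℤ) (c : ι → ℤ), (t = 0 ∨ t = 1) ∧ c ⬝ᵥ c = 1 ∧
      (∀ j, c ⬝ᵥ fam x y z j = 0) ∧ v = -x 0 + t • y + (t - 1) • z + c := by
  obtain ⟨r, h1, h2, h3⟩ := (fam_on hy hz hx hxy hxz hyz).rest v
  have g0 := hg 0
  have g1 := hg 1
  have g2' := hg 2
  have g3 := hg 3
  simp only [dotProduct_sub, dotProduct_add, g2] at g0 g1 g2' g3
  simp only [Fintype.sum_sum_type, Fin.sum_univ_four, Fin.sum_univ_two, fam, Sum.elim_inl,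
    Sum.elim_inr, cons_val_zero, cons_val_one, Matrix.cons_val] at h1 h3 g0 g1 g2' g3
  have h4 := dnn r
  generalize v ⬝ᵥ y = b at *
  generalize v ⬝ᵥ z = a at *
  have e0 : v ⬝ᵥ x 0 = a - b := by omega
  have e1 : v ⬝ᵥ x 1 = 1 + a - b := by omega
  have e2 : v ⬝ᵥ x 2 = 1 + a - b := by omega
  have e3 : v ⬝ᵥ x 3 = 1 + a - b := by omega
  rw [e0, e1, e2, e3] at h1 h3
  rw [hv] at h3
  have ha : a ≤ 1 ∧ -1 ≤ a := ⟨by nlinarith, by nlinarith⟩
  have hb : b ≤ 1 ∧ -1 ≤ b := ⟨by nlinarith, by nlinarith⟩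
  obtain ⟨ha1, ha2⟩ := ha
  obtain ⟨hb1, hb2⟩ := hb
  generalize hn : r ⬝ᵥ r = n at h3 h4
  interval_cases a <;> interval_cases b <;> norm_num at h3 <;> try omega
  · exact .inr ⟨0, r, .inl rfl, by omega, h2, by rw [h1]; simp⟩
  · left
    rw [h1, dz (hn.trans h3)]; simp
  · exact .inr ⟨1, r, .inr rfl, by omega, h2, by rw [h1]; simp⟩

end

theorem jobE2 : JobE2.{u} := by
  intro hS
  refine ⟨fun ι κ _ _ w d o a h hs _ hc => ?_, fun ι κ _ _ w d o p q h hκ hp hq hpq hs => ?_⟩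
  · obtain ⟨y, x, hy, hx, hxy, hxo, hyo, hw⟩ := base hS h
    have := ((fam_on hy (ee_self o) hx hxy hxo hyo).count (fun i => by
      obtain ⟨O, hO⟩ := hs i
      by_contra hn
      push Not at hn
      have a1 := hn (.inl O)
      have a2 := hn (.inr 0)
      have a3 := hn (.inr 1)
      simp only [fam, Sum.elim_inl, Sum.elim_inr, cons_val_zero, cons_val_one] at a1 a2 a3
      exact hO (by rw [hw]; simp [a1, a2, a3])) d).1
    simp at this
    omega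
  obtain ⟨y, x, hy, hx, hxy, hxo, hyo, hw⟩ := base hS h
  have hz := ee_self o
  have hzd : ee o ⬝ᵥ d = 1 := by rw [ee_dot, h.one]
  generalize ee o = z at *
  have hF := fam_on hy hz hx hxy hxo hyo
  obtain ⟨j, k, hjk, hall⟩ : ∃ j k : κ, j ≠ k ∧ ∀ l, l = j ∨ l = k := by
    classical
    obtain ⟨j, k, hjk, e⟩ := Finset.card_eq_two.1 (show (univ : Finset κ).card = 2 from hκ)
    exact ⟨j, k, hjk, fun l => by simpa [e] using (e ▸ mem_univ l : l ∈ ({j, k} : Finset κ))⟩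
  have x00 := hx.1 0
  have x11 := hx.1 1
  have x22 := hx.1 2
  have x33 := hx.1 3
  have xx : ∀ i j, i ≠ j → x i ⬝ᵥ x j = 0 := hx.2
  have hyx : ∀ j, y ⬝ᵥ x j = 0 := fun j => by rw [dotProduct_comm, hxy]
  have hzx : ∀ j, z ⬝ᵥ x j = 0 := fun j => by rw [dotProduct_comm, hxo]
  have hzy : z ⬝ᵥ y = 0 := by rw [dotProduct_comm, hyo]
  have T : ∀ v : ι → ℤ, v ⬝ᵥ v = 3 → (∀ O, v ⬝ᵥ w O = g2 O) → _ := fun v hv hg =>
    types hy hz hx hxy hxo hyo hv fun j => by rw [← hw]; exact hg j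
  have I : ∀ v v' : ι → ℤ, v ⬝ᵥ v = 3 → (∀ O, v ⬝ᵥ w O = g2 O) → v' ⬝ᵥ v' = 3 →
      (∀ O, v' ⬝ᵥ w O = g2 O) → v ⬝ᵥ v' = 2 → ∃ (t : ℤ) (c : ι → ℤ), (t = 0 ∨ t = 1) ∧
        c ⬝ᵥ c = 1 ∧ (∀ j, c ⬝ᵥ fam x y z j = 0) ∧ v = -x 0 + t • y + (t - 1) • z + c := by
    intro v v' hv hg hv' hg' e
    refine (T v hv hg).resolve_left fun e1 => ?_
    rcases T v' hv' hg' with e2 | ⟨t, c, -, -, hc, e2⟩
    · rw [e2, ← e1, hv] at e; omega
    · have c1 := hc (.inl 1)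
      have c2 := hc (.inl 2)
      have c3 := hc (.inl 3)
      simp only [fam, Sum.elim_inl] at c1 c2 c3
      rw [dotProduct_comm] at c1 c2 c3
      rw [e1, e2] at e
      simp only [add_dotProduct, dotProduct_add, dotProduct_neg, dotProduct_smul, hxy, hxo,
        xx 1 0 (by decide), xx 2 0 (by decide), xx 3 0 (by decide), c1, c2, c3] at e
      simp at e
  have P : ∀ (t t' : ℤ) (c c' : ι → ℤ), (∀ j, c ⬝ᵥ fam x y z j = 0) →
      (∀ j, c' ⬝ᵥ fam x y z j = 0) →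
      (-x 0 + t • y + (t - 1) • z + c) ⬝ᵥ (-x 0 + t' • y + (t' - 1) • z + c') =
        1 + t * t' + (t - 1) * (t' - 1) + c ⬝ᵥ c' := by
    intro t t' c c' hc hc'
    have c1 := hc (.inl 0)
    have c2 := hc (.inr 0)
    have c3 := hc (.inr 1)
    have c4 := hc' (.inl 0)
    have c5 := hc' (.inr 0)
    have c6 := hc' (.inr 1)
    simp only [fam, Sum.elim_inl, Sum.elim_inr, cons_val_zero, cons_val_one] at c1 c2 c3 c4 c5 c6
    rw [dotProduct_comm] at c4 c5 c6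
    simp only [add_dotProduct, dotProduct_add, neg_dotProduct, dotProduct_neg, smul_dotProduct,
      dotProduct_smul, smul_eq_mul, x00, hxy, hxo, hyx, hzx, hy, hz, hyo, hzy, c1, c2, c3, c4, c5,
      c6]
    ring
  have p3 : ∀ l, p l ⬝ᵥ p l = 3 := fun l => by rw [hp.self]; norm_num
  have q3 : ∀ l, q l ⬝ᵥ q l = 3 := fun l => by rw [hq.self]; norm_num
  have pq2 : ∀ l, p l ⬝ᵥ q l = 2 := fun l => by rw [hpq.self]; norm_num
  obtain ⟨t1, c1, ht1, u1, o1, e1⟩ := I _ _ (p3 j) (hp.prod j) (q3 j) (hq.prod j) (pq2 j)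
  obtain ⟨t2, c2, ht2, u2, o2, e2⟩ := I _ _ (q3 j) (hq.prod j) (p3 j) (hp.prod j)
    (by rw [dotProduct_comm, pq2])
  obtain ⟨t3, c3, ht3, u3, o3, e3⟩ := I _ _ (p3 k) (hp.prod k) (q3 k) (hq.prod k) (pq2 k)
  obtain ⟨t4, c4, ht4, u4, o4, e4⟩ := I _ _ (q3 k) (hq.prod k) (p3 k) (hp.prod k)
    (by rw [dotProduct_comm, pq2])
  have a12 := pq2 j
  have a34 := pq2 k
  have a13 := hp.gram j k hjk
  have a24 := hq.gram j k hjk
  have a14 := hpq.gram j k hjk
  have a32 := hpq.gram k j hjk.symm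
  rw [e1, e2, P _ _ _ _ o1 o2] at a12
  rw [e3, e4, P _ _ _ _ o3 o4] at a34
  rw [e1, e3, P _ _ _ _ o1 o3] at a13
  rw [e2, e4, P _ _ _ _ o2 o4] at a24
  rw [e1, e4, P _ _ _ _ o1 o4] at a14
  rw [e3, e2, P _ _ _ _ o3 o2] at a32
  rw [dotProduct_comm c3 c2] at a32
  have k12 : t1 = t2 := by
    by_contra hn
    have : c2 = c1 := eq_of_one u1 u2 (by
      rcases ht1 with rfl | rfl <;> rcases ht2 with rfl | rfl <;> omega)
    rw [this] at a32
    rcases ht1 with rfl | rfl <;> rcases ht2 with rfl | rfl <;> rcases ht3 with rfl | rfl <;> omega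
  have k34 : t3 = t4 := by
    by_contra hn
    have : c4 = c3 := eq_of_one u3 u4 (by
      rcases ht3 with rfl | rfl <;> rcases ht4 with rfl | rfl <;> omega)
    rw [this] at a14
    rcases ht1 with rfl | rfl <;> rcases ht4 with rfl | rfl <;> rcases ht3 with rfl | rfl <;> omega
  subst k12 k34
  have b12 : c1 ⬝ᵥ c2 = 0 := by rcases ht1 with rfl | rfl <;> omega
  have b34 : c3 ⬝ᵥ c4 = 0 := by rcases ht3 with rfl | rfl <;> omega
  have k13 : t1 ≠ t3 := by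
    rintro rfl
    have : c3 = -c1 := eq_of_neg u1 u3 (by rcases ht1 with rfl | rfl <;> omega)
    rw [this, dotProduct_neg, dotProduct_comm c2 c1, b12] at a32
    rcases ht1 with rfl | rfl <;> omega
  have b13 : c1 ⬝ᵥ c3 = 0 := by rcases ht1 with rfl | rfl <;> rcases ht3 with rfl | rfl <;> omega
  have b24 : c2 ⬝ᵥ c4 = 0 := by rcases ht1 with rfl | rfl <;> rcases ht3 with rfl | rfl <;> omega
  have b14 : c1 ⬝ᵥ c4 = 0 := by rcases ht1 with rfl | rfl <;> rcases ht3 with rfl | rfl <;> omega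
  have b23 : c2 ⬝ᵥ c3 = 0 := by rcases ht1 with rfl | rfl <;> rcases ht3 with rfl | rfl <;> omega
  have hC : On ![c1, c2, c3, c4] := by
    refine ⟨fun i => ?_, fun i j hij => ?_⟩
    · fin_cases i <;> simp [u1, u2, u3, u4]
    · fin_cases i <;> fin_cases j <;>
        simp [b12, b13, b14, b23, b24, b34, dotProduct_comm c2 c1, dotProduct_comm c3 c1,
          dotProduct_comm c4 c1, dotProduct_comm c3 c2, dotProduct_comm c4 c2,
          dotProduct_comm c4 c3] at hij ⊢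
  have D : ∀ c : ι → ℤ, c ⬝ᵥ c = 1 → (∀ j, c ⬝ᵥ fam x y z j = 0) → 3 ∣ c ⬝ᵥ d := by
    intro c hc oc
    refine dvd_of_off hc (fun i hi => (hs i hi).1) fun O => ?_
    have c1 := oc (.inl O)
    have c2 := oc (.inr 0)
    have c3 := oc (.inr 1)
    simp only [fam, Sum.elim_inl, Sum.elim_inr, cons_val_zero, cons_val_one] at c1 c2 c3
    rw [dotProduct_comm, hw, dotProduct_sub, dotProduct_add, c1, c2, c3]; rfl
  have d1 := D _ u1 o1
  have d3 := D _ u3 o3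
  have f1 := hpq.dp j
  have f3 := hpq.dp k
  rw [e1] at f1
  rw [e3] at f3
  simp only [add_dotProduct, neg_dotProduct, smul_dotProduct, smul_eq_mul, hzd] at f1 f3
  have hwd : ∀ O, x O ⬝ᵥ d + y ⬝ᵥ d = 1 := fun O => by
    have := h.deg O
    rw [hw, sub_dotProduct, add_dotProduct, hzd] at this
    omega
  have hyd : y ⬝ᵥ d % 3 = 2 := by
    rcases ht1 with rfl | rfl <;> rcases ht3 with rfl | rfl <;> omega
  have := count2 (d := d) hF hC (fun i l => by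
      fin_cases l <;> simp [dotProduct_comm (fam x y z i), o1, o2, o3, o4])
    (fun i h1 h2 => by
      have a1 := fun O => h1 (.inl O)
      have a2 := h1 (.inr 0)
      have a3 := h1 (.inr 1)
      simp only [fam, Sum.elim_inl, Sum.elim_inr, cons_val_zero, cons_val_one] at a1 a2 a3
      have b1 := h2 0
      have b2 := h2 1
      have b3 := h2 2
      have b4 := h2 3
      simp only [cons_val_zero, cons_val_one, Matrix.cons_val] at b1 b2 b3 b4
      obtain ⟨l, hl⟩ := (hs i fun O => by rw [hw]; simp [a1, a2, a3]).2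
      rcases hall l with rfl | rfl
      · rw [e1, e2] at hl; simp [a1, a2, a3, b1, b2] at hl
      · rw [e3, e4] at hl; simp [a1, a2, a3, b3, b4] at hl)
    (fun l => by
      rcases l with l | l
      · have := hwd l
        simp only [fam, Sum.elim_inl]; omega
      · fin_cases l
        · simp only [fam, Sum.elim_inr]; simp only [Fin.zero_eta, cons_val_zero]; omega
        · simp only [fam, Sum.elim_inr]; simp [hzd])
    (fun l => by
      fin_cases l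
      exacts [d1, D _ u2 o2, d3, D _ u4 o4])
  simpa using this

end H36.X3
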