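/- Slots X3-G4 and X3-G8 of the tower for the principal `3`-block with extraspecial defect
group. -/
import Cfsg.Agent.H36.X3E2

namespace H36.X3

open Finset Matrix H34.X3

universe u

theorem each_eq {κ : Type*} [Fintype κ] {f : κ → ℤ} {m : ℤ} (h : ∀ j, m ≤ f j)
    (hs : ∑ j, f j ≤ Fintype.card κ * m) (j : κ) : f j = m := by
  by_contra hn
  have := sum_lt_sum (s := univ) (f := fun _ : κ => m) (g := f) (fun i _ => h i)
    ⟨j, mem_univ j, lt_of_le_of_ne (h j) (Ne.symm hn)⟩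
  simp only [sum_const, card_univ, nsmul_eq_mul] at this
  omega

theorem sum_ge {κ : Type*} [Fintype κ] {f : κ → ℤ} {m : ℤ} (h : ∀ j, m ≤ f j) :
    Fintype.card κ * m ≤ ∑ j, f j := by
  have := sum_le_sum (s := univ) (f := fun _ : κ => m) (g := f) (fun i _ => h i)
  simpa only [sum_const, card_univ, nsmul_eq_mul] using this

theorem fb1 {b t : ℤ} (h : b + t ≠ 0) : 1 ≤ b ^ 2 + 2 * t ^ 2 := by
  by_cases hb : b = 0
  · have : t ≠ 0 := by omega
    nlinarith [sq_pos_of_ne_zero this, sq_nonneg b]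
  · nlinarith [sq_pos_of_ne_zero hb, sq_nonneg t]

theorem fb3 {b t : ℤ} (h : 2 ≤ b + t ∨ b + t ≤ -2) : 3 ≤ b ^ 2 + 2 * t ^ 2 := by
  have : 4 ≤ (b + t) ^ 2 := by rcases h with h | h <;> nlinarith
  have : 8 ≤ 3 * (b ^ 2 + 2 * t ^ 2) := by nlinarith [sq_nonneg (b - 2 * t)]
  omega

theorem fb0 {b t : ℤ} (h : b ^ 2 + 2 * t ^ 2 ≤ 1) : t = 0 := by
  by_contra ht
  nlinarith [sq_pos_of_ne_zero ht, sq_nonneg b]

section
variable {ι : Type u} {κ : Type} [Fintype ι] [Fintype κ] {y W d : ι → ℤ}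
  {u : κ ⊕ κ ⊕ κ → ι → ℤ} {p q : κ → ι → ℤ}

theorem dec (hy : y ⬝ᵥ y = 1) (hu : On u) (huy : ∀ j, u j ⬝ᵥ y = 0)
    (hpq : ∀ j, p j = u (.inl j) + y + u (.inr (.inl j)) ∧ q j = u (.inl j) + y + u (.inr (.inr j)))
    {g : ℤ} (hp : ∀ j, p j ⬝ᵥ W = g) (hq : ∀ j, q j ⬝ᵥ W = g) :
    ∃ (r : ι → ℤ) (b t : κ → ℤ), (∀ j, W ⬝ᵥ u (.inl j) = b j) ∧
      (∀ j, W ⬝ᵥ u (.inr (.inl j)) = t j) ∧ (∀ j, W ⬝ᵥ u (.inr (.inr j)) = t j) ∧
      (∀ j, b j + t j = g - W ⬝ᵥ y) ∧ r ⬝ᵥ y = 0 ∧ (∀ j, r ⬝ᵥ u j = 0) ∧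
      r ⬝ᵥ r = W ⬝ᵥ W - (W ⬝ᵥ y) ^ 2 - ∑ j, (b j ^ 2 + 2 * t j ^ 2) ∧
      ((∀ j, t j = 0) → W = (W ⬝ᵥ y) • y + ∑ j, b j • u (.inl j) + r) := by
  obtain ⟨r, h1, h2, h3⟩ := (hu.elim (on_unit hy) fun i _ => huy i).rest W
  have e1 : ∀ j, W ⬝ᵥ u (.inl j) + W ⬝ᵥ u (.inr (.inl j)) = g - W ⬝ᵥ y := fun j => by
    have := hp j
    rw [(hpq j).1, dotProduct_comm, dotProduct_add, dotProduct_add] at this
    omega
  have e2 : ∀ j, W ⬝ᵥ u (.inr (.inr j)) = W ⬝ᵥ u (.inr (.inl j)) := fun j => by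
    have a := hq j
    have := e1 j
    rw [(hpq j).2, dotProduct_comm, dotProduct_add, dotProduct_add] at a
    omega
  simp only [Fintype.sum_sum_type, Sum.elim_inl, Sum.elim_inr, e2, Fintype.sum_unique] at h1 h3
  refine ⟨r, fun j => W ⬝ᵥ u (.inl j), fun j => W ⬝ᵥ u (.inr (.inl j)), fun _ => rfl, fun _ => rfl,
    e2, e1, h2 (.inr ()), fun j => h2 (.inl j), ?_, fun h0 => ?_⟩
  · rw [h3, sum_add_distrib, ← mul_sum]; ring
  · simp only [h0, zero_smul, sum_const_zero, add_zero] at h1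
    rw [add_comm ((W ⬝ᵥ y) • y)]
    exact h1

omit [Fintype κ] in
theorem on_l (hu : On u) : On fun j : κ => u (.inl j) :=
  ⟨fun _ => hu.1 _, fun _ _ h => hu.2 _ _ fun e => h (Sum.inl_injective e)⟩

omit [Fintype κ] in
theorem on_r (hu : On u) : On fun j : κ ⊕ κ => u (.inr j) :=
  ⟨fun _ => hu.1 _, fun _ _ h => hu.2 _ _ fun e => h (Sum.inr_injective e)⟩

theorem unit_d {v : ι → ℤ} {o : ι} (hv : v ⬝ᵥ v = 1) (h : v ⬝ᵥ ee o ≠ 0) (hd : d o = 1) :
    v ⬝ᵥ d = 1 ∨ v ⬝ᵥ d = -1 := by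
  rcases unit_cases (ee_self o) hv with k | k | k
  · exact absurd ((dotProduct_comm _ _).trans k) h
  · rw [k, ee_dot, hd]; exact .inl rfl
  · rw [k, neg_dotProduct, ee_dot, hd]; exact .inr rfl

end

theorem jobG8 : JobG8.{u} := by
  intro hP ι κ _ _ w d o p q h hκ hp hq hpq hs
  obtain ⟨y, u, hy, hu, huy, hd⟩ := hP ι κ p q d (by omega) h.ne
    (fun j => by rw [hp.self]; norm_num) (fun j => by rw [hq.self]; norm_num) hp.gram hq.gram hpq
  obtain ⟨r, b, t, hb, ht, ht', hbt, hry, hru, hr, hW⟩ :=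
    dec (W := w 0) (g := 3) hy hu huy hd (fun j => hp.prod j 0) (fun j => hq.prod j 0)
  have r0 := dnn r
  have wo : w 0 ⬝ᵥ ee o = -1 := by rw [dot_ee, h.at_o]
  rw [h.self] at hr
  have S0 : 0 ≤ ∑ j, (b j ^ 2 + 2 * t j ^ 2) := sum_nonneg fun j _ => by positivity
  generalize hγ : w 0 ⬝ᵥ y = γ at *
  have g1 : γ ≤ 3 := by nlinarith
  have g2 : 2 ≤ γ := by
    by_contra hn
    have := sum_ge (f := fun j => b j ^ 2 + 2 * t j ^ 2) (m := 3) fun j =>
      fb3 (.inl (by have := hbt j; omega))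
    rw [hκ] at this
    have := sq_nonneg γ
    omega
  have g3 : γ ≠ 3 := by
    rintro rfl
    have e := each_eq (f := fun j => b j ^ 2 + 2 * t j ^ 2) (m := 0) (fun j => by positivity)
      (by omega)
    have t0 : ∀ j, t j = 0 := fun j => fb0 (b := b j) (by have := e j; omega)
    have b0 : ∀ j, b j = 0 := fun j => by have := hbt j; have := t0 j; omega
    have := hW t0
    rw [dz (v := r) (by omega)] at this
    simp only [b0, zero_smul, sum_const_zero, add_zero] at this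
    rw [this, smul_dotProduct, smul_eq_mul] at wo
    omega
  obtain rfl : γ = 2 := by omega
  have l1 : ∀ j, 1 ≤ b j ^ 2 + 2 * t j ^ 2 := fun j => fb1 (by have := hbt j; omega)
  have l2 := sum_ge l1
  have e := each_eq l1 (by rw [hκ]; omega)
  have t0 : ∀ j, t j = 0 := fun j => fb0 (b := b j) (by have := e j; omega)
  have b0 : ∀ j, b j = 1 := fun j => by have := hbt j; have := t0 j; omega
  have hw := hW t0
  rw [hκ] at l2
  rw [dz (v := r) (by omega)] at hw
  simp only [b0, one_smul, add_zero] at hw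
  have D : ∀ j : κ ⊕ κ, 3 ∣ u (.inr j) ⬝ᵥ d := fun j =>
    dvd_of_off (hu.1 _) (fun i hi => (hs i hi).1) fun O => by
      obtain rfl : O = 0 := Subsingleton.elim _ _
      rcases j with j | j
      exacts [(ht j).trans (t0 j), (ht' j).trans (t0 j)]
  have X : ∀ j, 3 ∣ u (.inl j) ⬝ᵥ d + y ⬝ᵥ d := fun j => by
    have a := hpq.dp j
    have := D (.inl j)
    rw [(hd j).1, add_dotProduct, add_dotProduct] at a
    omega
  obtain ⟨j, hj⟩ : ∃ j, u (.inl j) ⬝ᵥ ee o ≠ 0 := by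
    by_contra hn
    push Not at hn
    rw [hw, add_dotProduct, sum_dotProduct, smul_dotProduct, smul_eq_mul] at wo
    simp only [hn, sum_const_zero] at wo
    omega
  have Y : ¬ 3 ∣ y ⬝ᵥ d := by
    have := X j
    rcases unit_d (hu.1 _) hj h.one with k | k <;> omega
  have := count2 (d := d) ((on_l hu).elim (on_unit hy) fun i _ => huy _) (on_r hu)
    (fun i l => by
      rcases i with i | i
      · exact hu.2 _ _ (by simp)
      · exact (dotProduct_comm _ _).trans (huy _))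
    (fun i h1 h2 => by
      have a1 : ∀ l, u (.inl l) i = 0 := fun l => h1 (.inl l)
      have a2 : y i = 0 := h1 (.inr ())
      obtain ⟨l, hl⟩ := (hs i fun O => by
        obtain rfl : O = 0 := Subsingleton.elim _ _
        rw [hw]; simp [a1, a2]).2
      rw [(hd l).1, (hd l).2] at hl
      simp [a1, a2, h2] at hl)
    (fun l => by
      rcases l with l | l
      · have := X l
        simp only [Sum.elim_inl]; omega
      · exact Y) D
  simpa [hκ] using this

theorem jobG4 : JobG4.{u} := by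
  intro hP ι κ _ _ w d o p q h hκ hp hq hpq hs
  obtain ⟨y, u, hy, hu, huy, hd⟩ := hP ι κ p q d (by omega) h.ne
    (fun j => by rw [hp.self]; norm_num) (fun j => by rw [hq.self]; norm_num) hp.gram hq.gram hpq
  obtain ⟨r, b, t, hb, ht, ht', hbt, hry, hru, hr, hW⟩ :=
    dec (W := w 0) (g := -2) hy hu huy hd (fun j => hp.prod j 0) (fun j => hq.prod j 0)
  obtain ⟨r', b', t', hb', hT, hT', hbt', hry', hru', hr', hW'⟩ :=
    dec (W := w 1) (g := -1) hy hu huy hd (fun j => hp.prod j 1) (fun j => hq.prod j 1)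
  have r0 := dnn r
  have r0' := dnn r'
  have wo : ∀ O, w O ⬝ᵥ ee o = -1 := fun O => by rw [dot_ee, h.at_o]
  have w01 := h.gram 1 0 (by decide)
  rw [h.self] at hr hr'
  have S0 : 0 ≤ ∑ j, (b j ^ 2 + 2 * t j ^ 2) := sum_nonneg fun j _ => by positivity
  have S0' : 0 ≤ ∑ j, (b' j ^ 2 + 2 * t' j ^ 2) := sum_nonneg fun j _ => by positivity
  generalize hγ : w 0 ⬝ᵥ y = γ at *
  generalize hγ' : w 1 ⬝ᵥ y = γ' at *
  have g1 : -2 ≤ γ := by nlinarith
  have g2 : γ ≤ -1 := by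
    by_contra hn
    have := sum_ge (f := fun j => b j ^ 2 + 2 * t j ^ 2) (m := 3) fun j =>
      fb3 (.inr (by have := hbt j; omega))
    rw [hκ] at this
    have := sq_nonneg γ
    omega
  have g3 : γ ≠ -2 := by
    rintro rfl
    have t0 : ∀ j, t j = 0 := fun j => fb0 (b := b j) (by
      have := single_le_sum (f := fun j => b j ^ 2 + 2 * t j ^ 2) (s := univ)
        (fun j _ => by positivity) (mem_univ j)
      omega)
    have b0 : ∀ j, b j = 0 := fun j => by have := hbt j; have := t0 j; omega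
    have e := hW t0
    simp only [b0, t0, zero_smul, sum_const_zero, add_zero] at e hr
    have u1 : r ⬝ᵥ r = 1 := by rw [hr]; simp
    have a := wo 0
    have a1 := wo 1
    rw [e, add_dotProduct, smul_dotProduct, smul_eq_mul] at a
    rw [e, dotProduct_add, dotProduct_smul, smul_eq_mul, hγ'] at w01
    rcases unit_cases (ee_self o) u1 with k | k | k
    · rw [dotProduct_comm] at k; omega
    · rw [k] at w01; omega
    · rw [k, dotProduct_neg] at w01; omega
  obtain rfl : γ = -1 := by omega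
  have l1 : ∀ j, 1 ≤ b j ^ 2 + 2 * t j ^ 2 := fun j => fb1 (by have := hbt j; omega)
  have l2 := sum_ge l1
  have e := each_eq l1 (by rw [hκ]; omega)
  have t0 : ∀ j, t j = 0 := fun j => fb0 (b := b j) (by have := e j; omega)
  have b0 : ∀ j, b j = -1 := fun j => by have := hbt j; have := t0 j; omega
  have hw := hW t0
  rw [hκ] at l2
  rw [dz (v := r) (by omega)] at hw
  simp only [b0, add_zero] at hw
  rw [hw, dotProduct_add, dotProduct_sum, dotProduct_smul, hγ'] at w01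
  simp only [dotProduct_smul, hb', smul_eq_mul, neg_mul, one_mul, sum_neg_distrib] at w01
  have s1 : ∑ j, b' j + ∑ j, t' j = 4 * (-1 - γ') := by
    rw [← sum_add_distrib]
    simp only [hbt', sum_const, card_univ, hκ, nsmul_eq_mul]; norm_num
  have s2 : ∑ j, (b' j ^ 2 + 2 * t' j ^ 2) =
      4 * (1 + γ') ^ 2 + 2 * (1 + γ') * ∑ j, t' j + 3 * ∑ j, t' j ^ 2 := by
    have : ∀ j, b' j ^ 2 + 2 * t' j ^ 2 =
        (1 + γ') ^ 2 + 2 * (1 + γ') * t' j + 3 * t' j ^ 2 := fun j => by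
      have : b' j = -1 - γ' - t' j := by have := hbt' j; omega
      rw [this]; ring
    simp only [this, sum_add_distrib, ← mul_sum, sum_const, card_univ, hκ, nsmul_eq_mul]
    norm_num
  have s3 : ∑ j, t' j ≤ ∑ j, t' j ^ 2 := sum_le_sum fun j _ => Int.le_self_sq _
  have s4 : -∑ j, t' j ≤ ∑ j, t' j ^ 2 := by
    rw [← sum_neg_distrib]
    exact sum_le_sum fun j _ => by simpa using Int.le_self_sq (-t' j)
  have s5 : ∑ j, t' j = -3 * γ' := by omega
  rw [s5] at s2 s3 s4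
  have g4 : γ' ≤ 2 := by nlinarith
  have g5 : -2 ≤ γ' := by nlinarith
  obtain rfl : γ' = 0 := by
    interval_cases γ' <;> omega
  have s6 : ∑ j, t' j ^ 2 = 0 := by omega
  have t1 : ∀ j, t' j = 0 := fun j => pow_eq_zero_iff (n := 2) (by norm_num) |>.1
    ((sum_eq_zero_iff_of_nonneg fun j _ => sq_nonneg (t' j)).1 s6 j (mem_univ j))
  have b1 : ∀ j, b' j = -1 := fun j => by have := hbt' j; have := t1 j; omega
  have hw' := hW' t1
  simp only [b1, zero_smul, zero_add] at hw'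
  have u1 : r' ⬝ᵥ r' = 1 := by omega
  have D : ∀ j : κ ⊕ κ, 3 ∣ u (.inr j) ⬝ᵥ d := fun j =>
    dvd_of_off (hu.1 _) (fun i hi => (hs i hi).1) fun O => by
      fin_cases O <;> rcases j with j | j
      exacts [(ht j).trans (t0 j), (ht' j).trans (t0 j), (hT j).trans (t1 j), (hT' j).trans (t1 j)]
  have X : ∀ j, 3 ∣ u (.inl j) ⬝ᵥ d + y ⬝ᵥ d := fun j => by
    have a := hpq.dp j
    have := D (.inl j)
    rw [(hd j).1, add_dotProduct, add_dotProduct] at a
    omega
  obtain ⟨j, hj⟩ : ∃ j, u (.inl j) ⬝ᵥ ee o ≠ 0 := by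
    by_contra hn
    push Not at hn
    have a := wo 0
    have a1 := wo 1
    rw [hw, add_dotProduct, sum_dotProduct, smul_dotProduct, smul_eq_mul] at a
    rw [hw', add_dotProduct, sum_dotProduct] at a1
    simp only [smul_dotProduct, hn, smul_zero, sum_const_zero] at a a1
    have k1 := eq_of_one hy (ee_self o) (by omega)
    rw [k1] at a1
    omega
  have Y : ¬ 3 ∣ y ⬝ᵥ d := by
    have := X j
    rcases unit_d (hu.1 _) hj h.one with k | k <;> omega
  have R : ¬ 3 ∣ r' ⬝ᵥ d := by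
    have a := h.deg 0
    have a1 := h.deg 1
    rw [hw, add_dotProduct, smul_dotProduct, smul_eq_mul] at a
    rw [hw', add_dotProduct] at a1
    omega
  have hyr : On ![y, r'] := by
    refine ⟨fun i => ?_, fun i j hij => ?_⟩
    · fin_cases i <;> simp [hy, u1]
    · fin_cases i <;> fin_cases j <;> simp [hry', dotProduct_comm y r'] at hij ⊢
  have := count2 (d := d) ((on_l hu).elim hyr fun i l => by
      fin_cases l
      exacts [huy _, (dotProduct_comm _ _).trans (hru' _)]) (on_r hu)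
    (fun i l => by
      rcases i with i | i
      · exact hu.2 _ _ (by simp)
      · fin_cases i
        exacts [(dotProduct_comm _ _).trans (huy _), hru' _])
    (fun i h1 h2 => by
      have a1 : ∀ l, u (.inl l) i = 0 := fun l => h1 (.inl l)
      have a2 : y i = 0 := h1 (.inr 0)
      have a3 : r' i = 0 := h1 (.inr 1)
      obtain ⟨l, hl⟩ := (hs i fun O => by
        fin_cases O
        · show w 0 i = 0
          rw [hw]; simp [a1, a2]
        · show w 1 i = 0
          rw [hw']; simp [a1, a3]).2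
      rw [(hd l).1, (hd l).2] at hl
      simp [a1, a2, h2] at hl)
    (fun l => by
      rcases l with l | l
      · have := X l
        simp only [Sum.elim_inl]; omega
      · fin_cases l
        exacts [Y, R]) D
  simpa [hκ] using this

end H36.X3
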